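import Cfsg.Prelude.Def_LieExceptional
import Cfsg.Agent.H49.Hall
import Cfsg.Agent.H83.BGAux
import Cfsg.Agent.H71.Invert
import Cfsg.Agent.S0040

/-!
CN-groups: basic lemmas, maximal nilpotent subgroups, quotients, Frobenius complements.
-/

set_option autoImplicit false
set_option linter.unusedSectionVars false

namespace Cfsg.Agent.H51

open Cfsg.Agent.H49 Subgroup

universe u v

variable {G : Type u} [Group G]

theorem isCN_of_injective {H : Type v} [Group H] (hCN : IsCNGroup G) (f : H →* G)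
    (hf : Function.Injective f) : IsCNGroup H := by
  intro x hx
  have := hCN (f x) (by simpa [map_eq_one_iff f hf] using hx)
  have hle : (𝒞[x]).map f ≤ 𝒞[f x] := by
    rintro _ ⟨y, hy, rfl⟩
    rw [mem_cent1, ← map_mul, mem_cent1.mp hy, map_mul]
  have h1 : Group.IsNilpotent ((𝒞[x]).map f) :=
    Group.nilpotent_of_mulEquiv (subgroupOfEquivOfLe hle)
  exact Group.nilpotent_of_mulEquiv ((𝒞[x]).equivMapOfInjective f hf).symm

theorem isCN_subgroup (hCN : IsCNGroup G) (M : Subgroup G) : IsCNGroup M :=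
  isCN_of_injective hCN M.subtype M.subtype_injective

variable [Finite G]

theorem exists_prime_pow {x : G} (hx : x ≠ 1) :
    ∃ y ∈ zpowers x, (orderOf y).Prime := by
  obtain ⟨p, hp, hd⟩ := exists_prime_dvd_card (zpowers_ne_bot.mpr hx)
  obtain ⟨y, hy, e⟩ := exists_orderOf_eq_of_dvd_card hp hd
  exact ⟨y, hy, e ▸ hp⟩

omit [Finite G] in
theorem ne_one_of_prime_orderOf {x : G} (h : (orderOf x).Prime) : x ≠ 1 := by
  rintro rfl
  simp [Nat.not_prime_one] at h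

omit [Finite G] in
theorem cent1_le_of_mem_zpowers {x y : G} (h : y ∈ zpowers x) : 𝒞[x] ≤ 𝒞[y] := by
  rw [← cent_zpowers]; exact cent_le_cent1 h

omit [Finite G] in
theorem isPi_zpowers_prime {x : G} (h : (orderOf x).Prime) : IsPi {orderOf x} (zpowers x) :=
  isPi_of_card_eq_prime h (Nat.card_zpowers x)

section CN

variable (hCN : IsCNGroup G)
include hCN

theorem cn_nil_of_cent1 {N : Subgroup G} {x : G} (hx : x ≠ 1) (h : N ≤ 𝒞[x]) :
    Group.IsNilpotent N := nilpotent_of_le (hCN x hx) h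

theorem cn_nil_of_cent {N A : Subgroup G} (hA : A ≠ ⊥) (h : N ≤ 𝒞(A)) : Group.IsNilpotent N := by
  obtain ⟨x, hx, hx1⟩ := ne_bot_iff_exists.mp hA
  exact cn_nil_of_cent1 hCN hx1 (h.trans (cent_le_cent1 hx))

/-- A subgroup centralising a nonidentity element of a nilpotent subgroup of coprime order
centralises all of it. -/
theorem cn_cent {A Y : Subgroup G} (hA : Group.IsNilpotent A) {x : G} (hx : x ∈ A) (hx1 : x ≠ 1)
    (hY : Y ≤ 𝒞[x]) (hc : (Nat.card Y).Coprime (Nat.card A)) : Y ≤ 𝒞(A) := by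
  obtain ⟨z, hz, hz1⟩ := ne_bot_iff_exists.mp
    (center_ne_bot_of_nilpotent hA (ne_bot_iff_exists.mpr ⟨x, hx, hx1⟩))
  have h1 : Y ≤ 𝒞(A ⊓ 𝒞(A)) := nilpotent_cent_of_coprime (hCN x hx1) hY
    (inf_le_right.trans (cent_le_cent1 hx)) (coprime_of_le hc le_rfl inf_le_left)
  exact nilpotent_cent_of_coprime (hCN z hz1) (h1.trans (cent_le_cent1 hz))
    (le_cent1_iff.mpr hz.2) hc

theorem cn_cent₂ {A B : Subgroup G} (hA : Group.IsNilpotent A) (hB : Group.IsNilpotent B)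
    (hc : (Nat.card A).Coprime (Nat.card B)) {x y : G} (hx : x ∈ A) (hx1 : x ≠ 1) (hy : y ∈ B)
    (hy1 : y ≠ 1) (h : y ∈ 𝒞[x]) : A ≤ 𝒞(B) := by
  have h1 := cn_cent hCN hA hx hx1 (zpowers_le.mpr h)
    (coprime_of_le hc.symm (zpowers_le.mpr hy) le_rfl)
  exact cn_cent hCN hB hy hy1 (le_cent1_iff.mpr (zpowers_le.mp h1)) hc

end CN

/-- maximal nilpotent subgroups -/
def MaxNil (H : Subgroup G) : Prop :=
  Group.IsNilpotent H ∧ ∀ L : Subgroup G, Group.IsNilpotent L → H ≤ L → L = H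

theorem exists_maxNil_ge {A : Subgroup G} (hA : Group.IsNilpotent A) : ∃ H, MaxNil H ∧ A ≤ H := by
  obtain ⟨H, hAH, hH⟩ := Finite.exists_le_maximal (p := fun L : Subgroup G => Group.IsNilpotent L) hA
  exact ⟨H, ⟨hH.prop, fun L hL h => le_antisymm (hH.le_of_ge hL h) h⟩, hAH⟩

omit [Finite G] in
theorem MaxNil.cj {H : Subgroup G} (h : MaxNil H) (g : G) : MaxNil (cj g H) := by
  refine ⟨isNilpotent_cj.mpr h.1, fun L hL hle => ?_⟩
  rw [← h.2 (H49.cj g⁻¹ L) (isNilpotent_cj.mpr hL) (cj_le_iff.mp hle), cj_cj_inv]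

omit [Finite G] in
theorem MaxNil.le_of_sup {H L : Subgroup G} (h : MaxNil H) (hL : Group.IsNilpotent ↥(H ⊔ L)) :
    L ≤ H := le_sup_right.trans (h.2 _ hL le_sup_left).le

theorem MaxNil.ne_bot [Nontrivial G] {H : Subgroup G} (h : MaxNil H) : H ≠ ⊥ := by
  rintro rfl
  obtain ⟨x, hx⟩ := exists_ne (1 : G)
  exact zpowers_ne_bot.mpr hx (h.2 _ (nilpotent_of_abelian inferInstance) bot_le)

section CN

variable (hCN : IsCNGroup G)
include hCN

theorem MaxNil.le_of_cent {H Y : Subgroup G} (h : MaxNil H) {π : Set ℕ} {x : G} (hx : x ∈ H)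
    (hx1 : x ≠ 1) (hxπ : IsPiElt π x) (hY : Y ≤ 𝒞[x]) (hYπ : IsPi πᶜ Y) : Y ≤ H := by
  have hxP : x ∈ piCoreOf π H :=
    zpowers_le.mp (nilpotent_le_piCoreOf h.1 (zpowers_le.mpr hx) (isPi_zpowers.mpr hxπ))
  have hP := nilpotent_of_le h.1 (piCoreOf_le π H)
  have hO : piCoreOf πᶜ 𝒞[x] ≤ 𝒞(piCoreOf π H) := cn_cent hCN hP hxP hx1 (piCoreOf_le _ _)
    ((piCoreOf_pi _ _).coprime' (piCoreOf_pi _ _))
  have hnil := nilpotent_sup_of_cent (nilpotent_of_le (hCN x hx1) (piCoreOf_le πᶜ _)) hP hO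
  have hle : H ≤ piCoreOf πᶜ 𝒞[x] ⊔ piCoreOf π H := by
    conv_lhs => rw [← (nilpotent_isDp h.1 π).1]
    refine sup_le le_sup_right (le_sup_of_le_left (nilpotent_le_piCoreOf (hCN x hx1) ?_
      (piCoreOf_pi _ _)))
    exact (cent_symm (piCoreOf_cent_compl π H)).trans (cent_le_cent1 hxP)
  exact (nilpotent_le_piCoreOf (hCN x hx1) hY hYπ).trans (le_sup_left.trans (h.2 _ hnil hle).le)

theorem MaxNil.exists_sylow_le {H : Subgroup G} (h : MaxNil H) {p : ℕ} (hp : p.Prime)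
    (hd : p ∣ Nat.card H) : ∃ S, IsSylowOf p S ⊤ ∧ S ≤ H := by
  obtain ⟨S, hS, hle⟩ := exists_sylowOf_ge (piCoreOf_pi {p} H) (le_top (a := piCoreOf {p} H))
  refine ⟨S, hS, ?_⟩
  by_cases hO : piCoreOf {p}ᶜ H = ⊥
  · have e := (nilpotent_isDp h.1 {p}).1
    rw [hO, sup_bot_eq] at e
    exact (h.2 S hS.pi.nilpotent (e ▸ hle)).le
  · obtain ⟨y, hy, hy1⟩ := ne_bot_iff_exists.mp hO
    obtain ⟨x, hx, hx1⟩ := ne_bot_iff_exists.mp
      ((nilpotent_hall_piCoreOf h.1 {p}).ne_bot hp rfl hd)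
    have h1 : zpowers y ≤ 𝒞(S) := cn_cent hCN hS.pi.nilpotent (hle hx) hx1
      (zpowers_le.mpr (cent_le_cent1 hx (cent_symm (piCoreOf_cent_compl {p} H) hy)))
      (((piCoreOf_pi _ _).of_le (zpowers_le.mpr hy)).coprime' hS.pi)
    exact h.le_of_cent hCN (piCoreOf_le _ _ hy) hy1 ((piCoreOf_pi _ _).elt hy)
      (le_cent1_iff.mpr (zpowers_le.mp h1)) hS.pi.compl_compl

theorem MaxNil.hall {H : Subgroup G} (h : MaxNil H) : IsPiHallOf (primesOf H) H ⊤ := by
  refine hall_mk le_top (isPi_primesOf H) fun p hp hd hpH => ?_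
  obtain ⟨S, hS, hle⟩ := h.exists_sylow_le hCN hp hpH.2
  exact hS.index_of_le hle p hp hd rfl

theorem MaxNil.eq_of_inf {H K : Subgroup G} (hH : MaxNil H) (hK : MaxNil K)
    (hp : ∀ p : ℕ, p.Prime → ¬ IsPi {p} H) (h : H ⊓ K ≠ ⊥) : H = K := by
  obtain ⟨x₀, hx₀, hx₀1⟩ := ne_bot_iff_exists.mp h
  obtain ⟨x, hx, hxp⟩ := exists_prime_pow hx₀1
  replace hx : x ∈ H ⊓ K := zpowers_le.mpr hx₀ hx
  have hx1 := ne_one_of_prime_orderOf hxp
  set p := orderOf x
  have hxπ : IsPiElt {p} x := isPi_zpowers.mp (isPi_zpowers_prime hxp)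
  have hxP : x ∈ piCoreOf {p} H :=
    zpowers_le.mp (nilpotent_le_piCoreOf hH.1 (zpowers_le.mpr hx.1) (isPi_zpowers.mpr hxπ))
  have h1 : piCoreOf {p}ᶜ H ≤ K := hK.le_of_cent hCN hx.2 hx1 hxπ
    ((cent_symm (piCoreOf_cent_compl {p} H)).trans (cent_le_cent1 hxP)) (piCoreOf_pi _ _)
  have e := (nilpotent_isDp hH.1 {p}).1
  have hO : piCoreOf {p}ᶜ H ≠ ⊥ := by
    intro hO
    rw [hO, sup_bot_eq] at e
    exact hp p hxp (e ▸ piCoreOf_pi _ _)
  obtain ⟨y, hy, hy1⟩ := ne_bot_iff_exists.mp hO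
  have h2 : piCoreOf {p} H ≤ K := hK.le_of_cent hCN (h1 hy) hy1 ((piCoreOf_pi _ _).elt hy)
    ((piCoreOf_cent_compl {p} H).trans (cent_le_cent1 hy)) (piCoreOf_pi _ _).compl_compl
  exact (hH.2 K hK.1 (e ▸ sup_le h2 h1)).symm

theorem MaxNil.cent1_le {H : Subgroup G} (h : MaxNil H)
    (hTI : ∀ g : G, H49.cj g H ≠ H → H ⊓ H49.cj g H = ⊥) {x : G} (hx : x ∈ H) (hx1 : x ≠ 1) :
    𝒞[x] ≤ H := by
  have hN : 𝒞[x] ≤ 𝒩(H) := by
    intro g hg
    by_contra hg'
    have h1 := hTI g fun e => hg' (mem_norm_iff_cj.mpr e)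
    refine hx1 (mem_bot.mp (h1 ▸ ⟨hx, mem_cj.mpr ?_⟩))
    rwa [mul_assoc, ← mem_cent1.mp hg, inv_mul_cancel_left]
  have e := (nilpotent_isDp (hCN x hx1) (primesOf H)).1
  rw [← e]
  refine sup_le ((h.hall hCN).le_of_norm le_top (piCoreOf_pi _ _)
    (Or.inl ((piCoreOf_le _ _).trans hN))) ?_
  exact h.le_of_cent hCN hx hx1 ((isPi_primesOf H).elt hx) (piCoreOf_le _ _) (piCoreOf_pi _ _)

theorem isCN_of_surjective_of_isPi {Q : Type v} [Group Q] (f : G →* Q)
    (hf : Function.Surjective f) {p : ℕ} (hk : IsPi {p} f.ker) : IsCNGroup Q := by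
  have : Finite Q := Finite.of_surjective f hf
  intro q₀ hq₀
  obtain ⟨q, hq, hqp⟩ := exists_prime_pow hq₀
  refine nilpotent_of_le ?_ (cent1_le_of_mem_zpowers hq)
  set r := orderOf q with hr
  obtain ⟨x, hx, hxr⟩ : ∃ x, f x = q ∧ IsPiElt {r} x := by
    obtain ⟨x, rfl⟩ := hf q
    obtain ⟨y, -, z, hz, e, hy, hz'⟩ := exists_pi_decomp {r} x
    refine ⟨y, ?_, hy⟩
    have h1 : f z ∈ zpowers (f x) := by
      rw [← MonoidHom.map_zpowers]; exact mem_map_of_mem f hz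
    have : f z = 1 := ((isPi_zpowers_prime hqp).elt h1).eq_one (IsPiNat.of_dvd hz' (orderOf_map_dvd f z))
    rw [e, map_mul, this, mul_one]
  have hq1 := ne_one_of_prime_orderOf hqp
  have hx1 : x ≠ 1 := by rintro rfl; exact hq1 (by rw [← hx, map_one])
  set C := (𝒞[q]).comap f with hC
  have hmap : C.map f = 𝒞[q] := map_comap_eq_self_of_surjective hf _
  have hn : ∀ A : Subgroup G, A ≤ 𝒩(f.ker) := fun A => le_normalizer_of_normal
  have hcomm : ∀ A, A ≤ C → ⁅f.ker ⊔ zpowers x, A⁆ ≤ f.ker := by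
    intro A hA
    rw [← Subgroup.map_eq_bot_iff, map_commutator, Subgroup.map_sup,
      (Subgroup.map_eq_bot_iff _).mpr le_rfl,
      bot_sup_eq, MonoidHom.map_zpowers, hx, Subgroup.commutator_comm, H49.commutator_eq_bot_iff,
      cent_zpowers]
    exact map_le_iff_le_comap.mpr hA
  rw [← hmap]
  by_cases hrp : r = p
  · subst hrp
    set X := f.ker ⊔ zpowers x with hX
    have hXp : IsPi {r} X := hk.sup (isPi_zpowers.mpr hxr) (Or.inr (hn _))
    have hXC : X ≤ C := sup_le (fun y hy => by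
      rw [hC, mem_comap, MonoidHom.mem_ker.mp hy]; exact one_mem _)
      (zpowers_le.mpr (by rw [hC, mem_comap, hx]; exact self_mem_cent1 q))
    have hXn : C ≤ 𝒩(X) := le_normalizer_iff_commutator_le_left.mpr
      ((hcomm C le_rfl).trans le_sup_left)
    obtain ⟨P, hP, hXP⟩ := exists_sylowOf_ge hXp hXC
    have hX1 : X ≠ ⊥ := ne_bot_iff_exists.mpr ⟨x, mem_sup_right (mem_zpowers x), hx1⟩
    obtain ⟨z, hz, hz1⟩ := ne_bot_iff_exists.mp
      (inf_center_ne_bot_of_nilpotent hP.pi.nilpotent hXP (hP.le.trans hXn) hX1)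
    refine nilpotent_map (cn_nil_of_cent1 hCN hz1 (le_of_sylowOf_le fun s hs _ => ?_)) f
    by_cases hsr : s = r
    · exact ⟨P, hsr ▸ hP, le_cent1_iff.mpr hz.2⟩
    · obtain ⟨R, hR⟩ := exists_sylowOf s C
      refine ⟨R, hR, ?_⟩
      have hc : (Nat.card R).Coprime (Nat.card X) :=
        hR.pi.coprime (hXp.compl_singleton_of_ne (Ne.symm hsr))
      have h1 := coprime_comm_sup_cent (hR.le.trans hXn) hc
        (Or.inl (solvable_of_nilpotent hR.pi.nilpotent))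
      have h2 : X ⊓ 𝒞(R) ≠ ⊥ := by
        intro h2
        rw [h2, sup_bot_eq] at h1
        have : x ∈ f.ker := hcomm R hR.le (h1.ge (mem_sup_right (mem_zpowers x)))
        exact hq1 (hx.symm.trans this)
      obtain ⟨w, hw, hw1⟩ := ne_bot_iff_exists.mp h2
      exact (cn_cent hCN hXp.nilpotent hw.1 hw1 (le_cent1_iff.mpr hw.2) hc).trans
        (cent_le_cent1 hz.1)
  · have h1 : C ≤ (⊤ ⊓ 𝒞(zpowers x)) ⊔ f.ker := coprime_le_cent_sup (le_norm_top _) (hn _)
      ((isPi_zpowers.mpr hxr).coprime (hk.compl_singleton_of_ne (Ne.symm hrp)))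
      (Or.inl inferInstance) le_top (by
        rw [Subgroup.commutator_comm]
        exact (commutator_mono le_sup_right le_rfl).trans (hcomm C le_rfl))
    refine nilpotent_of_le (nilpotent_map (hCN x hx1) f) ((map_mono h1).trans ?_)
    rw [Subgroup.map_sup, (Subgroup.map_eq_bot_iff _).mpr le_rfl, sup_bot_eq, top_inf_eq, cent_zpowers]

end CN

theorem exists_pcore_ne_bot {H : Subgroup G} (hH : Group.IsSolvable H) (h : H ≠ ⊥) :
    ∃ p : ℕ, p.Prime ∧ piCoreOf {p} H ≠ ⊥ := by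
  obtain ⟨p, hp, hd⟩ := exists_prime_dvd_card (fittingOf_ne_bot hH h)
  exact ⟨p, hp, (sylowOf_pcore_fittingOf p H).ne_bot hp rfl hd⟩

theorem isCN_of_surjective (n : ℕ) : ∀ (G : Type u) [Group G] [Finite G], IsCNGroup G →
    ∀ {Q : Type v} [Group Q] (f : G →* Q), Function.Surjective f → Group.IsSolvable f.ker →
      Nat.card G = n → IsCNGroup Q := by
  induction n using Nat.strong_induction_on with
  | _ n ih =>
    intro G _ _ hCN Q _ f hf hs hn
    by_cases hk : f.ker = ⊥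
    · have e := MulEquiv.ofBijective f ⟨(MonoidHom.ker_eq_bot_iff f).mp hk, hf⟩
      exact isCN_of_injective hCN e.symm.toMonoidHom e.symm.injective
    obtain ⟨p, hp, hN⟩ := exists_pcore_ne_bot hs hk
    set N := piCoreOf {p} f.ker with hNdef
    have : N.Normal := normal_iff_top_le_norm.mpr (norm_piCoreOf _ le_normalizer_of_normal)
    have hle : N ≤ f.ker := piCoreOf_le _ _
    have h1 : IsCNGroup (G ⧸ N) := isCN_of_surjective_of_isPi hCN (QuotientGroup.mk' N)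
      (QuotientGroup.mk'_surjective N) (p := p) (by rw [QuotientGroup.ker_mk']; exact piCoreOf_pi _ _)
    refine ih _ ?_ (G ⧸ N) h1 (QuotientGroup.lift N f hle)
      (QuotientGroup.lift_surjective_of_surjective N f hf hle) ?_ rfl
    · rw [← hn, ← N.card_mul_index]
      exact lt_mul_of_one_lt_left (Nat.pos_of_ne_zero index_ne_zero_of_finite)
        ((one_lt_card_iff_ne_bot N).mpr hN)
    · rw [QuotientGroup.ker_lift]
      exact solvable_map hs _

theorem isCN_quotient (hCN : IsCNGroup G) (H : Subgroup G) [H.Normal] (hH : Group.IsSolvable H) :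
    IsCNGroup (G ⧸ H) :=
  isCN_of_surjective _ G hCN (QuotientGroup.mk' H) (QuotientGroup.mk'_surjective H)
    (by rwa [QuotientGroup.ker_mk']) rfl

theorem isZGroup_of_semiregular {K E : Subgroup G} (hK : K ≠ ⊥) (hn : E ≤ 𝒩(K))
    (hr : Semiregular K E) (h2 : ∀ Q, IsSylowOf 2 Q E → IsCyclic Q) : IsZGroup E := by
  refine ⟨fun p hp P => ?_⟩
  have := Fact.mk hp
  have hP := sylowOf_map hp P
  have e := (P : Subgroup E).equivMapOfInjective E.subtype E.subtype_injective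
  refine (e.isCyclic).mpr ?_
  rcases S0040.cyclic_or_quaternion hK (hP.le.trans hn) (fun a ha => hr a (hP.le ha))
    (hP.pi.isPGroup hp) with h | ⟨rfl, -⟩
  · exact h
  · exact h2 _ hP

theorem isZGroup_of_semiregular_odd {K E : Subgroup G} (hK : K ≠ ⊥) (hn : E ≤ 𝒩(K))
    (hr : Semiregular K E) (ho : Odd (Nat.card E)) : IsZGroup E := by
  refine isZGroup_of_semiregular hK hn hr fun Q hQ => ?_
  rw [hQ.eq_bot ((isPi_compl_singleton Nat.prime_two).mpr ho.not_two_dvd_nat)]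
  infer_instance

/-- An involution acting fixed-point-freely is central modulo the centraliser. -/
theorem conj_mul_inv_mem_cent_of_fpf {K : Subgroup G} {t g : G} (ht : orderOf t = 2)
    (htn : t ∈ 𝒩(K)) (hr : K ⊓ 𝒞[t] = ⊥) (hg : g ∈ 𝒩(K)) : g * t * g⁻¹ * t⁻¹ ∈ 𝒞(K) :=
  H71.commutator_mem_centralizer_of_inverts
    (H71.inverts_of_fpf (by rw [← pow_two, ← ht, pow_orderOf_eq_one]) htn (by rwa [inf_comm])) hg

omit [Finite G] in
theorem Semiregular.eq_one_of_cent {K E : Subgroup G} (hr : Semiregular K E) (hK : K ≠ ⊥) {x : G}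
    (hx : x ∈ E) (hc : x ∈ 𝒞(K)) : x = 1 := by
  by_contra h
  exact hK (eq_bot_iff.mpr (hr x hx h ▸ le_inf le_rfl (le_cent1_iff.mpr hc)))

/-- In a CN-group, a subgroup acting fixed-point-freely is nilpotent. -/
theorem cn_nil_of_semiregular (hCN : IsCNGroup G) {K E : Subgroup G} (hK : K ≠ ⊥)
    (hn : E ≤ 𝒩(K)) (hr : Semiregular K E) : Group.IsNilpotent E := by
  by_cases h2 : 2 ∣ Nat.card E
  · obtain ⟨t, ht, ho⟩ := exists_orderOf_eq_of_dvd_card Nat.prime_two h2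
    have ht1 := ne_one_of_prime_orderOf (ho ▸ Nat.prime_two)
    refine cn_nil_of_cent1 hCN ht1 fun g hg => ?_
    have := Semiregular.eq_one_of_cent hr hK
      (E.mul_mem (E.mul_mem (E.mul_mem hg ht) (E.inv_mem hg)) (E.inv_mem ht))
      (conj_mul_inv_mem_cent_of_fpf ho (hn ht) (hr t ht ht1) (hn hg))
    rw [mul_inv_eq_one, mul_inv_eq_iff_eq_mul] at this
    exact mem_cent1.mpr this
  have hZ := isZGroup_of_semiregular_odd hK hn hr (Nat.odd_iff.mpr (Nat.two_dvd_ne_zero.mp h2))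
  have hc : IsCyclic ↥⁅E, E⁆ := by
    rw [← map_subtype_commutator]
    exact cyclic_map (IsZGroup.isCyclic_commutator E) _
  by_cases hD : ⁅E, E⁆ = ⊥
  · exact nilpotent_of_abelian (abelian_iff.mpr (H49.commutator_eq_bot_iff.mp hD))
  obtain ⟨r, hrp, hd⟩ := exists_prime_dvd_card hD
  obtain ⟨y, hy, ho⟩ := exists_orderOf_eq_of_dvd_card hrp hd
  have hyp : (orderOf y).Prime := ho ▸ hrp
  have hy1 := ne_one_of_prime_orderOf hyp
  have hyE : y ∈ E := der_le hy
  have hyn : E ≤ 𝒩(zpowers y) := H83.norm_of_cyclic hc (zpowers_le.mpr hy) norm_der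
  refine cn_nil_of_cent1 hCN hy1 (le_of_sylowOf_le fun s hs hsd => ?_)
  obtain ⟨T, hT⟩ := exists_sylowOf s E
  refine ⟨T, hT, le_cent1_iff.mpr ?_⟩
  by_cases hsr : s = orderOf y
  · subst hsr
    have h1 := hT.normal_le (zpowers_le.mpr hyE) hyn (isPi_zpowers_prime hyp)
    have h3 := inf_center_ne_bot_of_nilpotent hT.pi.nilpotent h1 (hT.le.trans hyn)
      (zpowers_ne_bot.mpr hy1)
    exact zpowers_le.mp ((inf_eq_bot_or_le_of_prime_card
      (by rwa [Nat.card_zpowers]) _).resolve_left h3)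
  · obtain ⟨x, hx, hxo⟩ := exists_orderOf_eq_of_dvd_card hs (hT.dvd_card hs rfl hsd)
    have hxp : (orderOf x).Prime := hxo ▸ hs
    have h1 := H2.commute_of_fpf hK hn hr (hT.le hx) hyE hxp hyp (hyn (hT.le hx))
    exact zpowers_le.mp (cn_cent hCN hT.pi.nilpotent hx (ne_one_of_prime_orderOf hxp)
      (zpowers_le.mpr (mem_cent1.mpr h1.symm))
      ((isPi_zpowers_prime hyp).coprime (hT.pi.compl_singleton_of_ne hsr)))

theorem cn_cyclic_of_semiregular (hCN : IsCNGroup G) {K E : Subgroup G} (hK : K ≠ ⊥)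
    (hn : E ≤ 𝒩(K)) (hr : Semiregular K E) (ho : Odd (Nat.card E)) : IsCyclic E := by
  have := isZGroup_of_semiregular_odd hK hn hr ho
  have := cn_nil_of_semiregular hCN hK hn hr
  infer_instance

end Cfsg.Agent.H51
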