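import Cfsg.Agent.H51.CN
import Cfsg.Agent.H50.Section
import Cfsg.Agent.S0039

/-!
Solvable CN-groups: nilpotent, Frobenius or three-step.
-/

set_option autoImplicit false
set_option linter.unusedSectionVars false

namespace Cfsg.Agent.H51

open Cfsg.Agent.H49 Subgroup

universe u v

variable {G : Type u} [Group G] [Finite G]

/-- the primes for which `M` has a normal Sylow subgroup -/
def fcorePi (M : Subgroup G) : Set ℕ := {p | IsSylowOf p (piCoreOf {p} M) M}

theorem isPi_fcorePi {M L : Subgroup G} (hL : IsHallOf L M) (hn : M ≤ 𝒩(L))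
    (hnil : Group.IsNilpotent L) : IsPi (fcorePi M) L := by
  intro p hp hd
  have h1 : IsSylowOf p (piCoreOf {p} L) M :=
    (nilpotent_hall_piCoreOf hnil {p}).trans_sylow hL.hall ⟨hp, hd⟩
  exact h1.hall_piCoreOf (norm_piCoreOf _ hn)

theorem hall_fcorePi (M : Subgroup G) :
    IsPiHallOf (fcorePi M) (piCoreOf (fcorePi M) (fittingOf M)) M := by
  refine hall_mk ((piCoreOf_le _ _).trans (fittingOf_le M)) (piCoreOf_pi _ _) fun p hp hd hpF => ?_
  have h1 : piCoreOf {p} M ≤ piCoreOf (fcorePi M) (fittingOf M) :=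
    nilpotent_le_piCoreOf (fittingOf_nil M) (pcore_le_fittingOf p M)
      ((piCoreOf_pi _ _).of_singleton hpF)
  have hpF' : IsSylowOf p (piCoreOf {p} M) M := hpF
  exact hpF'.index_of_le h1 p hp hd rfl

theorem fcore_eq (M : Subgroup G) : fittingHallOf M = piCoreOf (fcorePi M) (fittingOf M) := by
  apply le_antisymm
  · unfold fittingHallOf fittingHall
    rw [map_le_iff_le_comap]
    refine sSup_le fun N hN => ?_
    obtain ⟨h1, h2, h3⟩ := hN
    rw [← map_le_iff_le_comap]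
    have hnil : Group.IsNilpotent (N.map M.subtype) :=
      (nilpotent_map_iff M.subtype_injective).2 h2
    have hn : M ≤ 𝒩(N.map M.subtype) := norm_map_subtype N
    refine nilpotent_le_piCoreOf (fittingOf_nil M) (le_fittingOf (map_subtype_le N) hn hnil)
      (isPi_fcorePi ⟨map_subtype_le N, ?_⟩ hn hnil)
    rwa [relIndex_map_subtype_self, card_map_of_injective M.subtype_injective]
  · have h := hall_fcorePi M
    have hn : M ≤ 𝒩(piCoreOf (fcorePi M) (fittingOf M)) :=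
      norm_piCoreOf _ (le_norm_fittingOf M)
    have h1 : (piCoreOf (fcorePi M) (fittingOf M)).subgroupOf M ≤ fittingHall M := by
      refine le_sSup ⟨normal_subgroupOf hn, nilpotent_subgroupOf
        (nilpotent_of_le (fittingOf_nil M) (piCoreOf_le _ _)) M, ?_⟩
      rw [card_subgroupOf_of_le h.le]
      exact h.coprime
    have h2 := map_mono (f := M.subtype) h1
    rwa [subgroupOf_map_subtype, inf_eq_left.2 h.le] at h2

theorem fcore_hall (M : Subgroup G) : IsPiHallOf (fcorePi M) (fittingHallOf M) M :=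
  fcore_eq M ▸ hall_fcorePi M

theorem fcore_normal (M : Subgroup G) : M ≤ 𝒩(fittingHallOf M) := norm_map_subtype _

theorem fcore_nil (M : Subgroup G) : Group.IsNilpotent (fittingHallOf M) :=
  nilpotent_of_le (fittingOf_nil M) (fcore_eq M ▸ piCoreOf_le _ _)

theorem fcore_max {M L : Subgroup G} (hL : IsHallOf L M) (hn : M ≤ 𝒩(L))
    (hnil : Group.IsNilpotent L) : L ≤ fittingHallOf M :=
  (fcore_hall M).le_of_normal (fcore_normal M) hL.1 (isPi_fcorePi hL hn hnil)

theorem fcore_top : fittingHallOf (⊤ : Subgroup G) = fittingHall G := by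
  apply le_antisymm
  · refine le_sSup ⟨normal_iff_top_le_norm.mpr (fcore_normal ⊤), fcore_nil ⊤, ?_⟩
    rw [← relIndex_top_right]
    exact (fcore_hall ⊤).coprime
  · refine sSup_le fun N hN => fcore_max ⟨le_top, ?_⟩ (normal_iff_top_le_norm.mp hN.1) hN.2.1
    rw [relIndex_top_right]
    exact hN.2.2

section CN

variable (hCN : IsCNGroup G)
include hCN

/-- A Sylow subgroup centralising a nontrivial normal subgroup is normal. -/
theorem cn_sylow_normal_of_cent {M R Y : Subgroup G} {r : ℕ} (hR : IsSylowOf r R M) (hY : Y ≠ ⊥)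
    (hn : M ≤ 𝒩(Y)) (hc : R ≤ 𝒞(Y)) : M ≤ 𝒩(R) :=
  (norm_inf (norm_of_le le_rfl) (norm_cent hn)).trans (nilpotent_hall_norm
    (cn_nil_of_cent hCN hY inf_le_right) (hR.sub (le_inf hR.le hc) inf_le_left))

theorem cn_fcore_semiregular {M E : Subgroup G} (h : IsSdp (fittingHallOf M) E M) :
    Semiregular (fittingHallOf M) E := by
  intro e₀ he₀ he₀1
  by_contra hne
  obtain ⟨x, hx, hx1⟩ := ne_bot_iff_exists.mp hne
  obtain ⟨e, he, hp⟩ := exists_prime_pow he₀1
  have heE : e ∈ E := zpowers_le.mpr he₀ he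
  have hE := (fcore_hall M).compl_of_isComplIn h.isComplIn
  have hr : orderOf e ∉ fcorePi M := hE.pi _ hp (orderOf_dvd_natCard E heE)
  obtain ⟨R, hR, hle⟩ := exists_sylowOf_ge (isPi_zpowers_prime hp)
    (zpowers_le.mpr (h.right_le heE))
  have hc : R ≤ 𝒞(fittingHallOf M) := cn_cent₂ hCN hR.pi.nilpotent (fcore_nil M)
    ((hR.pi.compl_of_singleton hr).coprime' (fcore_hall M).pi) (zpowers_le.mp hle)
    (ne_one_of_prime_orderOf hp) hx.1 hx1 (cent1_le_of_mem_zpowers he hx.2)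
  exact hr (hR.hall_piCoreOf (cn_sylow_normal_of_cent hCN hR
    (ne_bot_iff_exists.mpr ⟨x, hx.1, hx1⟩) (fcore_normal M) hc))

theorem cn_sylow_normal_of_cores {M S : Subgroup G} {p : ℕ} (hS : IsSylowOf p S M)
    (h1 : piCoreOf {p} M ≠ ⊥) (h2 : piCoreOf {p}ᶜ M ≠ ⊥) : M ≤ 𝒩(S) := by
  obtain ⟨x, hx, hx1⟩ := ne_bot_iff_exists.mp h1
  refine cn_sylow_normal_of_cent hCN hS h2 (le_norm_piCoreOf _ _) (cent_symm ?_)
  exact cn_cent hCN hS.pi.nilpotent (hS.piCoreOf_le hx) hx1
    ((cent_symm (piCoreOf_cent_compl {p} M)).trans (cent_le_cent1 hx))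
    ((piCoreOf_pi _ _).coprime' hS.pi)

/-- A non-nilpotent CN-group with `M_F ≠ 1` is a Frobenius group with kernel `M_F`. -/
theorem cn_frobenius {M : Subgroup G} (hM : ¬ Group.IsNilpotent M) (h : fittingHallOf M ≠ ⊥) :
    ∃ E, IsFrob (fittingHallOf M) E M ∧ Group.IsNilpotent E := by
  obtain ⟨E, hE⟩ := exists_compl_of_coprime (fcore_hall M).le (fcore_normal M)
    (fcore_hall M).coprime
  have hr := cn_fcore_semiregular hCN hE
  refine ⟨E, ⟨hE, h, ?_, hr⟩, cn_nil_of_semiregular hCN h hE.2.2 hr⟩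
  rintro rfl
  have := hE.1
  rw [sup_bot_eq] at this
  exact hM (this ▸ fcore_nil M)

end CN

theorem semiregular_nilpotent_structure {K E : Subgroup G} (hK : K ≠ ⊥) (hn : E ≤ 𝒩(K))
    (hr : Semiregular K E) (hE : Group.IsNilpotent E) :
    IsCyclic E ∨ ∃ C Q : Subgroup G, C ⊔ Q = E ∧ (∀ a ∈ C, ∀ b ∈ Q, a * b = b * a) ∧ IsCyclic C ∧
      Odd (Nat.card C) ∧ ∃ n : ℕ, Nonempty (↥Q ≃* QuaternionGroup (2 ^ n)) := by
  have := Fact.mk Nat.prime_two
  have hQ := piCoreOf_le {2} E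
  rcases S0040.cyclic_or_quaternion hK (hQ.trans hn) (fun a ha => hr a (hQ ha))
    ((piCoreOf_pi _ _).isPGroup Nat.prime_two) with h | ⟨-, h⟩
  · left
    have := isZGroup_of_semiregular hK hn hr fun Q hQ => by rwa [nilpotent_hall_eq hE hQ]
    infer_instance
  · right
    have hC := piCoreOf_le {2}ᶜ E
    have ho : Odd (Nat.card (piCoreOf {2}ᶜ E)) := Nat.odd_iff.mpr (Nat.two_dvd_ne_zero.mp
      ((isPi_compl_singleton Nat.prime_two).mp (piCoreOf_pi _ _)))
    refine ⟨piCoreOf {2}ᶜ E, piCoreOf {2} E, by rw [sup_comm]; exact (nilpotent_isDp hE _).1,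
      fun a ha b hb => le_cent_iff.mp (piCoreOf_cent_compl {2} E) b hb a ha, ?_, ho, h⟩
    have := isZGroup_of_semiregular_odd hK (hC.trans hn) (fun a ha => hr a (hC ha)) ho
    have := nilpotent_of_le hE hC
    infer_instance

/-- The three-step case. -/
theorem cn_three_step [Group.IsSolvable G] (hCN : IsCNGroup G) {p : ℕ} (hp : p.Prime)
    (hO : piCoreOf {p}ᶜ (⊤ : Subgroup G) = ⊥) (hns : ¬ IsSylowOf p (piCoreOf {p} ⊤) (⊤ : Subgroup G)) :
    IsThreeStepGroup p G := by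
  have hsol : Group.IsSolvable (⊤ : Subgroup G) := inferInstance
  unfold IsThreeStepGroup
  rw [pCore_eq_piCoreOf_top hp]
  set F := piCoreOf {p} (⊤ : Subgroup G) with hF
  have hFp : IsPi {p} F := piCoreOf_pi _ _
  have hFn : F.Normal := normal_iff_top_le_norm.mpr (le_norm_piCoreOf _ _)
  have hCF : 𝒞(F) ≤ F := by simpa using cent_pcore_le hsol hO
  have hpi : p ∣ F.index := by
    by_contra h
    exact hns (hall_mk le_top hFp (by rwa [relIndex_top_right, isPiNat_compl_singleton hp]))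
  have hF1 : F ≠ ⊥ := by
    intro h
    rw [h, cent_bot, le_bot_iff] at hCF
    rw [h, ← hCF, index_top] at hpi
    exact hp.one_lt.ne' (Nat.dvd_one.mp hpi)
  let π := QuotientGroup.mk' F
  have hπ : Function.Surjective π := QuotientGroup.mk'_surjective F
  have hker : π.ker = F := QuotientGroup.ker_mk' F
  have hCN' : IsCNGroup (G ⧸ F) := isCN_quotient hCN F inferInstance
  have hsol' : Group.IsSolvable (⊤ : Subgroup (G ⧸ F)) := inferInstance
  have hO' : piCoreOf {p} (⊤ : Subgroup (G ⧸ F)) = ⊥ := by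
    rw [← map_top_of_surjective π hπ, ← map_piCoreOf π ⊤ (by rw [hker]; exact hFp.inf_left ⊤),
      Subgroup.map_eq_bot_iff, hker]
  set B := piCoreOf {p}ᶜ (⊤ : Subgroup (G ⧸ F)) with hB
  have hBp : IsPi {p}ᶜ B := piCoreOf_pi _ _
  have hBn : B.Normal := normal_iff_top_le_norm.mpr (le_norm_piCoreOf _ _)
  have hFN : F ≤ B.comap π := hker.ge.trans (ker_le_comap π B)
  have hidx : F.relIndex (B.comap π) = Nat.card B := by
    have := relIndex_ker π (K := B.comap π)
    rwa [hker, map_comap_eq_self_of_surjective hπ] at this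
  obtain ⟨A, hA⟩ := exists_compl_of_coprime hFN le_normalizer_of_normal
    (by rw [hidx]; exact IsPiNat.coprime hFp hBp)
  have hcA : Nat.card A = Nat.card B := by rw [← hA.relIndex_left, hidx]
  have hAp : IsPi {p}ᶜ A := by unfold IsPi; rw [hcA]; exact hBp
  have hmap : A.map π = B := by
    rw [← map_comap_eq_self_of_surjective hπ B, ← hA.1, Subgroup.map_sup,
      (Subgroup.map_eq_bot_iff F).mpr hker.ge, bot_sup_eq]
  have hAF : ∀ a ∈ A, a ≠ 1 → π a ≠ 1 := fun a ha h1 h =>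
    h1 (mem_bot.mp (hA.2.1 ▸ ⟨hker ▸ h, ha⟩))
  have hr : Semiregular F A := by
    intro a ha ha1
    by_contra hne
    obtain ⟨x, hx, hx1⟩ := ne_bot_iff_exists.mp hne
    have := cn_cent hCN hFp.nilpotent hx.1 hx1 (zpowers_le.mpr (mem_cent1_comm.mp hx.2))
      ((hAp.of_le (zpowers_le.mpr ha)).coprime' hFp)
    exact hAF a ha ha1 (hker.ge (hCF (zpowers_le.mp this)))
  have hAnil := cn_nil_of_semiregular hCN hF1 hA.2.2 hr
  have hBnil : Group.IsNilpotent B := hmap ▸ nilpotent_map hAnil π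
  have hFit : fittingOf (⊤ : Subgroup (G ⧸ F)) = B := by
    refine le_antisymm ?_ (le_fittingOf le_top le_normalizer_of_normal hBnil)
    conv_lhs => rw [← (nilpotent_isDp (fittingOf_nil ⊤) {p}).1, pcore_fittingOf, hO', bot_sup_eq]
    exact piCoreOf_fittingOf_le _ _
  have hCB : 𝒞(B) ≤ B := by simpa [hFit] using cent_fittingOf_le hsol'
  have key : ∀ y : G ⧸ F, IsPiElt {p} y → ∀ b ∈ B, b ≠ 1 → y ∈ 𝒞[b] → y = 1 := by
    intro y hy b hb hb1 hc
    have := cn_cent hCN' hBnil hb hb1 (zpowers_le.mpr hc) ((isPi_zpowers.mpr hy).coprime hBp)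
    exact hy.eq_one (hBp.elt (hCB (zpowers_le.mp this)))
  obtain ⟨y, -, hy⟩ := exists_orderOf_eq_of_dvd_card (H := (⊤ : Subgroup (G ⧸ F))) hp
    (by rw [card_top]; exact hpi)
  have hy1 : y ≠ 1 := ne_one_of_prime_orderOf (hy ▸ hp)
  have hyp : IsPiElt {p} y := by
    have := isPi_zpowers.mp (isPi_zpowers_prime (hy ▸ hp : (orderOf y).Prime))
    rwa [hy] at this
  have hyB : y ∉ B := fun h => hy1 (hyp.eq_one (hBp.elt h))
  have hA1 : A ≠ ⊥ := by
    rintro rfl
    rw [← hmap, Subgroup.map_bot, cent_bot] at hCB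
    exact hy1 (mem_bot.mp (hCB (mem_top y)))
  have hodd : Odd (Nat.card A) := by
    by_contra h2
    obtain ⟨t, ht, ho⟩ := exists_orderOf_eq_of_dvd_card Nat.prime_two
      (even_iff_two_dvd.mp (Nat.not_odd_iff_even.mp h2))
    have ht1 := ne_one_of_prime_orderOf (ho ▸ Nat.prime_two)
    obtain ⟨g, rfl⟩ := hπ y
    have h3 := hker.ge (hCF (conj_mul_inv_mem_cent_of_fpf (g := g) ho (hA.2.2 ht) (hr t ht ht1)
      (le_normalizer_of_normal (mem_top g))))
    rw [MonoidHom.mem_ker, map_mul, map_mul, map_mul, map_inv, map_inv, mul_inv_eq_one,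
      mul_inv_eq_iff_eq_mul] at h3
    exact hy1 (key _ hyp _ (hmap ▸ mem_map_of_mem π ht) (hAF t ht ht1) (mem_cent1.mpr h3))
  have hcyc := cn_cyclic_of_semiregular hCN hF1 hA.2.2 hr hodd
  have hder : ⁅(⊤ : Subgroup (G ⧸ F)), ⊤⁆ ≤ B :=
    (H50.der_cent_cyclic (hmap ▸ cyclic_map hcyc π) le_normalizer_of_normal).trans hCB
  have hhall : IsPiHallOf {p}ᶜ B ⊤ := by
    refine hall_mk le_top hBp fun r hr hd hrp => ?_
    obtain ⟨R, hR⟩ := exists_sylowOf r (⊤ : Subgroup (G ⧸ F))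
    have : B ⊔ R ≤ B := le_piCoreOf le_top (norm_of_der_le (hder.trans le_sup_left) le_top)
      (hBp.sup (hR.pi.of_singleton hrp) (Or.inr le_normalizer_of_normal))
    exact hR.index_of_le (le_sup_right.trans this) r hr hd rfl
  refine ⟨hF1, A, hA1, hcyc, hodd, (isPi_compl_singleton_iff_coprime hp).mp hAp, ?_⟩
  rw [hA.1]
  refine ⟨inferInstance, fun h => hyB ?_, ?_, hr, fun x hx a ha ha1 hc => hx ?_⟩
  · obtain ⟨g, rfl⟩ := hπ y
    exact (h.ge (mem_top g) : g ∈ B.comap π)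
  · rw [index_comap_of_surjective _ hπ, ← isPiNat_singleton hp index_ne_zero_of_finite,
      ← relIndex_top_right]
    simpa using hhall.index
  · obtain ⟨z, hz, w, -, e, hzp, hwp⟩ := exists_pi_decomp {p} (π x)
    have h3 := hker.ge hc
    rw [MonoidHom.mem_ker, map_mul, map_mul, map_mul, map_inv, map_inv, mul_inv_eq_one,
      mul_inv_eq_iff_eq_mul] at h3
    have h4 := key z hzp _ (hmap ▸ mem_map_of_mem π ha) (hAF a ha ha1)
      (zpowers_le.mpr (mem_cent1.mpr h3) hz)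
    rw [mem_comap, e, h4, one_mul]
    exact hhall.mem_of_normal le_normalizer_of_normal (mem_top w) hwp

theorem isFrobeniusComplement_of_isFrob_top {K E : Subgroup G} (h : IsFrob K E ⊤) :
    K.Normal ∧ IsComplement' K E ∧ IsFrobeniusComplement E := by
  have : K.Normal := normal_iff_top_le_norm.mpr h.1.norm
  have hc := isComplIn_top_iff.mp h.1.isComplIn
  exact ⟨this, hc, (S0039.result K E hc h.2.1 h.2.2.1).mpr h.2.2.2⟩

theorem cn_trichotomy [Group.IsSolvable G] (hCN : IsCNGroup G) :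
    Group.IsNilpotent G ∨ (∃ E, IsFrob (fittingHallOf ⊤) E ⊤ ∧ Group.IsNilpotent (E : Subgroup G)) ∨
      ∃ p : ℕ, p.Prime ∧ IsThreeStepGroup p G := by
  by_cases hn : Group.IsNilpotent (⊤ : Subgroup G)
  · exact Or.inl (Group.nilpotent_of_mulEquiv topEquiv)
  by_cases hF : fittingHallOf (⊤ : Subgroup G) = ⊥
  swap
  · exact Or.inr (Or.inl (cn_frobenius hCN hn hF))
  have h1 : (⊤ : Subgroup G) ≠ ⊥ := fun h => hn (h ▸ inferInstance)
  obtain ⟨p, hp, hO⟩ := exists_pcore_ne_bot inferInstance h1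
  have hns : ¬ IsSylowOf p (piCoreOf {p} ⊤) (⊤ : Subgroup G) := fun h =>
    hO (eq_bot_iff.mpr (hF ▸ fcore_max h.isHallOf (le_norm_piCoreOf _ _) h.pi.nilpotent))
  refine Or.inr (Or.inr ⟨p, hp, cn_three_step hCN hp ?_ hns⟩)
  by_contra h2
  obtain ⟨S, hS⟩ := exists_sylowOf p (⊤ : Subgroup G)
  exact hns (hS.hall_piCoreOf (cn_sylow_normal_of_cores hCN hS hO h2))

end Cfsg.Agent.H51
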