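import Cfsg.Agent.H51.FiE

/-! Centralisers in a subgroup of index two. -/

set_option autoImplicit false

namespace Cfsg.Agent.H51.Fi

open Cfsg.Agent.H95 Cfsg.Agent.H96 Cfsg.Agent.H52.Fi Subgroup

variable {G G' : Type*} [Group G] [Group G'] {D : Set G} {D' : Set G'}

theorem inf_closure {B : Set G} {L W : Subgroup G} {d : G} (h1 : d * d = 1) (h2 : d ∉ L)
    (h3 : ∀ b ∈ B, Commute d b) (h4 : ∀ b ∈ B, b * d ∈ W) (h5 : W ≤ L) (h6 : W ≤ closure B) :
    L ⊓ closure B = W := by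
  refine le_antisymm (fun x hx => ?_) (le_inf h5 h6)
  have k : ∀ x ∈ closure B, Commute d x ∧ (x ∈ W ∨ x * d ∈ W) := by
    intro x hx
    induction hx using closure_induction with
    | mem x hx => exact ⟨h3 x hx, Or.inr (h4 x hx)⟩
    | one => exact ⟨Commute.one_right _, Or.inl (one_mem _)⟩
    | mul x y _ _ k1 k2 =>
      refine ⟨k1.1.mul_right k2.1, ?_⟩
      rcases k1.2 with e | e <;> rcases k2.2 with e' | e'
      · exact Or.inl (mul_mem e e')
      · exact Or.inr (by rw [mul_assoc]; exact mul_mem e e')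
      · exact Or.inr (by rw [mul_assoc, ← k2.1.eq, ← mul_assoc]; exact mul_mem e e')
      · refine Or.inl ?_
        have := mul_mem e e'
        rwa [mul_assoc, ← k2.1.eq, ← mul_assoc d, h1, one_mul] at this
    | inv x _ k1 =>
      refine ⟨k1.1.inv_right, k1.2.imp inv_mem fun e => ?_⟩
      have := inv_mem e
      rwa [mul_inv_rev, inv_eq_of_mul_self h1, k1.1.inv_right.eq] at this
  rcases (k x hx.2).2 with e | e
  · exact e
  · exact absurd ((L.mul_mem_cancel_left hx.1).1 (h5 e)) h2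

theorem main_aut [Finite G] [IsSimpleGroup G'] (hc : ∀ g : G, ∀ d ∈ D, cj g d ∈ D) {l : List G}
    (hl : Clq D l) (ht : Tr D l.length) {L : Subgroup G} {d : G} (hd : d ∈ l)
    (hL : ∀ x, x ∈ L ∨ x * d ∈ L) {B : Set G} (hB : B = {x | x ∈ l}) {p : G → G'}
    (hp : SecB D B D' p) (hn : ∃ a b : G', ¬ Commute a b) (hB' : B ⊆ closure (nbs D B))
    {W X K : Subgroup G} (hW : L ⊓ closure B = W) (hW' : W ≤ ⁅centralizer B, centralizer B⁆)
    (hO : Nat.card (Out G') = l.length.factorial) (hX : X = L ⊓ normalizer B)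
    (hK : K = L ⊓ centralizer B) :
    IsQuasisimple K ∧ (generalizedFittingSubgroup X).map X.subtype = K ∧
      (center K).map K.subtype = W ∧ W ≤ K ∧
      (∃ _ : (W.subgroupOf K).Normal, Nonempty (K ⧸ W.subgroupOf K ≃* G')) ∧
      ∃ _ : (W.subgroupOf X).Normal, Nonempty (X ⧸ W.subgroupOf X ≃* MulAut G') := by
  have hdB : d ∈ B := hB ▸ hd
  have hZ := center_eq_bot_of_simple hn
  have h0 : Sec0 K W p := hK ▸ hW ▸ hp.restrict (subset_closure hdB) hL
  obtain ⟨q1, -, q3, q4, -⟩ := perm_quot hl ht hd hL (hB ▸ hX) (hB ▸ hK)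
  have c1 : ∀ v ∈ W, ∀ x ∈ K, Commute v x := fun v hv x hx =>
    closure_comm v (hW ▸ hv : v ∈ L ⊓ closure B).2 x (hK ▸ hx : x ∈ L ⊓ centralizer B).2
  have hq : IsQuasisimple K := h0.quasisimple hn (hW'.trans (hK ▸ commutator_le_inf
    (hp.le (subset_closure hdB)) (fun x hx => (mem_cents.1 hx d hdB).symm) hL)) c1
  obtain ⟨ψ, hψ⟩ := hp.aut
  have hXN : X ≤ normalizer B := hX ▸ inf_le_right
  have hKC : K ≤ centralizer B := hK ▸ inf_le_right
  have hker : (ψ.comp (inclusion hXN)).ker = W.subgroupOf X := by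
    ext g
    rw [MonoidHom.mem_ker, mem_subgroupOf]
    refine ⟨fun hg => ?_, fun hg => MulEquiv.ext fun y => ?_⟩
    · rw [← hW]
      refine ⟨(hX.le g.2).1, hp.mem_of_triv hc hZ hB' (hXN g.2) fun x hx => ?_⟩
      rw [← hψ ⟨g, hXN g.2⟩ x hx]
      exact DFunLike.congr_fun hg (p x)
    · obtain ⟨x, hx, rfl⟩ := h0.surj y
      exact (hψ ⟨g, hXN g.2⟩ x (hKC hx)).trans (by rw [cj_of_commute (c1 g hg x hx)]; rfl)
  have hfin : Finite G' := Finite.of_surjective _ h0.hom_surj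
  have hn' : (W.subgroupOf X).Normal := hker ▸ inferInstance
  refine ⟨hq, FSof_eq hq q1 q4 fun g hg => h0.le ?_, ?_, h0.le, ⟨h0.normal, ?_⟩, hn',
    equiv_of_card (h0.le.trans q1) _ hker ?_⟩
  · rw [← mem_subgroupOf (h := ⟨g, hg.1⟩), ← hker, MonoidHom.mem_ker]
    refine MulEquiv.ext fun y => ?_
    obtain ⟨x, hx, rfl⟩ := h0.surj y
    exact (hψ ⟨g, hXN hg.1⟩ x (hKC hx)).trans
      (by rw [cj_of_commute (mem_cents.1 hg.2 x hx)]; rfl)
  · rw [h0.center_eq hZ c1, subgroupOf_map_subtype, inf_of_le_left h0.le]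
  · have := h0.normal
    exact h0.equiv
  · rw [q3, h0.card, card_mulAut hZ, hO, mul_assoc]

end Cfsg.Agent.H51.Fi
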