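import Cfsg.Agent.H96.T24
import Cfsg.Agent.H96.T24D
import Cfsg.Agent.H96.FiDefs

set_option autoImplicit false

namespace Cfsg.Agent.H51.Fi

/-- the point model of the transpositions of Fi24 -/
theorem exists_T24 : ∃ T : H96.LModel Spor.Fi24 H96.D24, T.dat = H96.K24 := ⟨H96.T24, H96.T24_dat⟩

end Cfsg.Agent.H51.Fi
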