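/-
Weight projectors `pr K μ` of a finite group acting on a complex vector space, and their traces.
-/
import Mathlib.LinearAlgebra.Trace
import Mathlib.RingTheory.RootsOfUnity.Complex
import Mathlib.LinearAlgebra.FiniteDimensional.Lemmas

set_option autoImplicit false
set_option linter.unusedSectionVars false

namespace Cfsg.Agent.H51.MDeg

open Finset Module Classical

variable {V : Type*} [AddCommGroup V] [Module ℂ V]

noncomputable abbrev tr : End ℂ V →ₗ[ℂ] ℂ := LinearMap.trace ℂ V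

section
variable [FiniteDimensional ℂ V]

theorem tr_comm (a b : End ℂ V) : tr (a * b) = tr (b * a) := LinearMap.trace_mul_comm _ _ _

theorem tr_nat {e : End ℂ V} (h : e * e = e) : ∃ n : ℕ, tr e = n :=
  ⟨_, (LinearMap.IsIdempotentElem.isProj_range e h).trace⟩

theorem eq_zero {e : End ℂ V} (h : e * e = e) (h0 : tr e = 0) : e = 0 :=
  LinearMap.IsIdempotentElem.eq_zero_of_trace_eq_zero h h0

theorem rank_one {e f : End ℂ V} (h : e * e = e) (h1 : tr e = 1) (hf : f * e = e * f) :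
    f * e = tr (f * e) • e := by
  have h2 := (LinearMap.IsIdempotentElem.isProj_range e h).trace
  rw [show LinearMap.trace ℂ V e = 1 from h1, eq_comm, Nat.cast_eq_one, finrank_eq_one_iff'] at h2
  obtain ⟨v, -, hv⟩ := h2
  obtain ⟨c, hc⟩ := hv ⟨e (f v), _, rfl⟩
  have key : f * e = c • e := by
    ext x
    obtain ⟨a, ha⟩ := hv ⟨e x, _, rfl⟩
    have ha : a • (v : V) = e x := congrArg Subtype.val ha
    have hc : c • (v : V) = e (f v) := congrArg Subtype.val hc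
    have h3 : e (e x) = e x := congrArg (· x) h
    have h4 : ∀ y, f (e y) = e (f y) := fun y => congrArg (· y) hf
    rw [End.mul_apply, LinearMap.smul_apply, ← h3, h4, ← ha, map_smul, map_smul, ← hc, ha, h3, ← ha, smul_comm]
  rw [key, map_smul, h1, smul_eq_mul, mul_one]

/-- `tr (a * e) = 0` if `a` moves the idempotent `e` to an orthogonal one -/
theorem tr_move {a e e' : End ℂ V} (h : e * e = e) (h1 : a * e = e' * a) (h2 : e * e' = 0) : tr (a * e) = 0 := by
  rw [← h, ← mul_assoc, h1, tr_comm, ← mul_assoc, h2, zero_mul, map_zero]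

theorem cube {e b : End ℂ V} (h : e * e = e) (h1 : e * b = b) (h2 : b * e = b) (h3 : b * (b * b) = e) :
    ∃ n : ℕ, tr e + tr b + tr (b * b) = 3 * n := by
  obtain ⟨n, hn⟩ := tr_nat (e := (3⁻¹ : ℂ) • (e + b + b * b)) (by
    have h4 : e * (b * b) = b * b := by rw [← mul_assoc, h1]
    simp only [smul_mul_smul_comm, mul_add, add_mul, mul_assoc, h, h1, h2, h3, h4]
    module)
  rw [map_smul, map_add, map_add, smul_eq_mul] at hn
  exact ⟨n, by linear_combination 3 * hn⟩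

theorem cube' {e b : End ℂ V} (h : e * e = e) (h1 : e * b = b) (h2 : b * e = b) (h3 : b * (b * b) = e)
    (h4 : tr (b * b) = tr b) : ∃ r m : ℕ, 2 * m ≤ r ∧ tr e = r ∧ tr b = r - 3 * m := by
  obtain ⟨r, hr⟩ := tr_nat h
  obtain ⟨s, hs⟩ := cube h h1 h2 h3
  have hw := Complex.isPrimitiveRoot_exp 3 (by norm_num)
  set w := Complex.exp (2 * Real.pi * Complex.I / (3 : ℕ))
  have w1 : w * (w * w) = 1 := by rw [← hw.pow_eq_one]; ring
  have w2 := hw.geom_sum_eq_zero (by norm_num)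
  simp only [sum_range_succ, range_zero, sum_empty] at w2
  obtain ⟨m, hm⟩ := cube (b := w • b) h (by rw [mul_smul_comm, h1]) (by rw [smul_mul_assoc, h2])
    (by rw [smul_mul_smul_comm, smul_mul_smul_comm, w1, h3, one_smul])
  rw [smul_mul_smul_comm, map_smul, map_smul, h4, hr, smul_eq_mul, smul_eq_mul] at hm
  rw [h4, hr] at hs
  have h5 : tr b = r - 3 * m := by linear_combination -hm + tr b * w2
  have h6 : (r : ℂ) = s + 2 * m := by linear_combination (hs - 2 * h5) / 3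
  exact ⟨r, m, by have : r = s + 2 * m := (by exact_mod_cast h6); omega, hr, h5⟩

end

variable {G : Type*} [Group G] [Fintype G]

/-- `μ` is a character of `K` with values `±1` -/
structure Sg (K : Subgroup G) (μ : G → ℂ) : Prop where
  mul : ∀ a ∈ K, ∀ b ∈ K, μ (a * b) = μ a * μ b
  sq : ∀ a ∈ K, μ a * μ a = 1

omit [Fintype G] in
theorem sg_one (K : Subgroup G) : Sg K fun _ => 1 := ⟨by simp, by simp⟩

omit [Fintype G] in
theorem Sg.mono {K L : Subgroup G} {μ : G → ℂ} (h : Sg K μ) (hL : L ≤ K) : Sg L μ :=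
  ⟨fun a ha b hb => h.mul a (hL ha) b (hL hb), fun a ha => h.sq a (hL ha)⟩

theorem sum_const' (K : Subgroup G) (c : ℂ) : ∑ g, (if g ∈ K then c else 0) = Nat.card K * c := by
  rw [← sum_filter, sum_const, nsmul_eq_mul, Nat.card_eq_fintype_card, Fintype.card_subtype]

theorem Sg.sum_zero {K : Subgroup G} {μ : G → ℂ} (h : Sg K μ) {a : G} (ha : a ∈ K) (h1 : μ a = -1) :
    ∑ g, (if g ∈ K then μ g else 0) = 0 := by
  have := Equiv.sum_comp (Equiv.mulLeft a) fun g => if g ∈ K then μ g else 0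
  rw [sum_congr rfl (g := fun g => -if g ∈ K then μ g else 0) fun g _ => by
    by_cases hg : g ∈ K <;> simp [hg, K.mul_mem_cancel_left ha, h.mul a ha, h1], sum_neg_distrib] at this
  linear_combination (-1 / 2) * this

omit [Fintype G] in
theorem card_ne (K : Subgroup G) [Finite G] : (Nat.card K : ℂ) ≠ 0 := Nat.cast_ne_zero.2 Nat.card_pos.ne'

variable (ρ : G → End ℂ V)

noncomputable def ev (c : G → ℂ) : End ℂ V := ∑ g, c g • ρ g

/-- the projector onto the `μ`-weight space of `K` -/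
noncomputable def pr (K : Subgroup G) (μ : G → ℂ) : End ℂ V := ev ρ fun g => if g ∈ K then μ g / Nat.card K else 0

theorem ev_add (c d : G → ℂ) : ev ρ c + ev ρ d = ev ρ (c + d) := by
  simp [ev, add_smul, sum_add_distrib]

theorem ev_sum {ι : Type*} (s : Finset ι) (c : ι → G → ℂ) :
    ∑ i ∈ s, ev ρ (c i) = ev ρ fun g => ∑ i ∈ s, c i g := by
  simp only [ev, sum_smul]; exact sum_comm

theorem pr_congr {K : Subgroup G} {μ ν : G → ℂ} (h : ∀ a ∈ K, μ a = ν a) : pr ρ K μ = pr ρ K ν :=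
  congrArg (ev ρ) (funext fun g => by by_cases hg : g ∈ K <;> simp [hg, h])

theorem tr_pr (K : Subgroup G) (μ : G → ℂ) (x : End ℂ V) :
    Nat.card K * tr (pr ρ K μ * x) = ∑ g, if g ∈ K then μ g * tr (ρ g * x) else 0 := by
  rw [pr, ev, sum_mul, map_sum, mul_sum]
  refine sum_congr rfl fun g _ => ?_
  have := card_ne K
  by_cases hg : g ∈ K <;> simp [hg]
  field_simp

theorem pr_mul_eq {K : Subgroup G} {μ : G → ℂ} (h : Sg K μ) {x : End ℂ V} (hx : ∀ a ∈ K, ρ a * x = μ a • x) :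
    pr ρ K μ * x = x := by
  rw [pr, ev, sum_mul, sum_congr rfl (g := fun g => (if g ∈ K then (Nat.card K : ℂ)⁻¹ else 0) • x) fun g _ => by
    by_cases hg : g ∈ K
    · rw [smul_mul_assoc, hx g hg, smul_smul, if_pos hg, if_pos hg, div_mul_eq_mul_div, h.sq g hg, one_div]
    · simp [hg], ← sum_smul, sum_const', mul_inv_cancel₀ (card_ne K), one_smul]

variable {ρ} (hρ : ∀ a b, ρ (a * b) = ρ a * ρ b)
include hρ

theorem mul_ev (a : G) (c : G → ℂ) : ρ a * ev ρ c = ev ρ fun g => c (a⁻¹ * g) := by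
  rw [ev, ev, mul_sum, ← Equiv.sum_comp (Equiv.mulLeft a) fun g => c (a⁻¹ * g) • ρ g]
  simp [hρ]

theorem ev_mul (a : G) (c : G → ℂ) : ev ρ c * ρ a = ev ρ fun g => c (g * a⁻¹) := by
  rw [ev, ev, sum_mul, ← Equiv.sum_comp (Equiv.mulRight a) fun g => c (g * a⁻¹) • ρ g]
  simp [hρ]

theorem pr_conj {K : Subgroup G} {μ ν : G → ℂ} {h : G} (h1 : ∀ k, h * k * h⁻¹ ∈ K ↔ k ∈ K)
    (h2 : ∀ k ∈ K, ν (h * k * h⁻¹) = μ k) : ρ h * pr ρ K μ = pr ρ K ν * ρ h := by
  rw [pr, pr, mul_ev hρ, ev_mul hρ]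
  refine congrArg (ev ρ) (funext fun g => ?_)
  rw [show g * h⁻¹ = h * (h⁻¹ * g) * h⁻¹ by group, h1]
  split_ifs with hg
  exacts [by rw [h2 _ hg], rfl]

theorem Sg.mul_pr {K : Subgroup G} {μ : G → ℂ} (h : Sg K μ) {a : G} (ha : a ∈ K) :
    ρ a * pr ρ K μ = μ a • pr ρ K μ := by
  rw [pr, mul_ev hρ, ev, ev, smul_sum]
  refine sum_congr rfl fun g _ => ?_
  rw [smul_smul, K.mul_mem_cancel_left (inv_mem ha)]
  split_ifs with hg
  · have := h.mul a ha _ (mul_mem (inv_mem ha) hg)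
    rw [mul_inv_cancel_left] at this
    rw [this, ← mul_div_assoc, ← mul_assoc, h.sq a ha, one_mul]
  · rw [mul_zero]

theorem Sg.pr_mul {K : Subgroup G} {μ : G → ℂ} (h : Sg K μ) {a : G} (ha : a ∈ K) :
    pr ρ K μ * ρ a = μ a • pr ρ K μ := by
  rw [← h.mul_pr hρ ha]
  refine (pr_conj hρ (fun k => by rw [K.mul_mem_cancel_right (inv_mem ha), K.mul_mem_cancel_left ha])
    fun k hk => ?_).symm
  have := h.mul _ (mul_mem (mul_mem ha hk) (inv_mem ha)) a ha
  rw [inv_mul_cancel_right, h.mul a ha k hk] at this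
  linear_combination -μ a * this + (μ k - μ (a * k * a⁻¹)) * h.sq a ha

theorem Sg.idem {K : Subgroup G} {μ : G → ℂ} (h : Sg K μ) : pr ρ K μ * pr ρ K μ = pr ρ K μ :=
  pr_mul_eq ρ h fun _ => h.mul_pr hρ

theorem Sg.orth {K : Subgroup G} {μ ν : G → ℂ} (h : Sg K μ) (h' : Sg K ν) {a : G} (ha : a ∈ K)
    (e : μ a ≠ ν a) : pr ρ K μ * pr ρ K ν = 0 := by
  have := mul_assoc (pr ρ K μ) (ρ a) (pr ρ K ν)
  rw [h.pr_mul hρ ha, h'.mul_pr hρ ha, smul_mul_assoc, mul_smul_comm, ← sub_eq_zero, ← sub_smul,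
    smul_eq_zero] at this
  exact this.resolve_left (sub_ne_zero.2 e)

omit hρ in
theorem pr_comm {K L : Subgroup G} {μ ν : G → ℂ} (h : ∀ a ∈ L, ρ a * pr ρ K μ = pr ρ K μ * ρ a) :
    pr ρ L ν * pr ρ K μ = pr ρ K μ * pr ρ L ν := by
  rw [pr, ev, sum_mul, mul_sum]
  refine sum_congr rfl fun g _ => ?_
  by_cases hg : g ∈ L <;> simp [hg, h]

variable [FiniteDimensional ℂ V]

omit [Fintype G] in
theorem tr_conj (a x : G) : tr (ρ (a * x * a⁻¹)) = tr (ρ x) := by
  rw [hρ, tr_comm, ← hρ, inv_mul_cancel_left]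

theorem tr_avg (K : Subgroup G) (σ : G) :
    Nat.card K * tr (ρ σ * pr ρ K fun _ => 1) = ∑ g, if g ∈ K then tr (ρ (g * σ)) else 0 := by
  simp only [tr_comm (ρ σ), tr_pr, one_mul, hρ]

/-- the trace of an element of order 3 acting without fixed points on `T` -/
theorem frob {T : Subgroup G} {σ : G} (h3 : σ * (σ * σ) = 1) (hn : ∀ k, σ * k * σ⁻¹ ∈ T ↔ k ∈ T)
    (hc : ∀ t ∈ T, tr (ρ (t * σ)) = tr (ρ σ) ∧ tr (ρ (t * (σ * σ))) = tr (ρ σ)) :
    ∃ r m : ℕ, 2 * m ≤ r ∧ ∑ g, (if g ∈ T then tr (ρ g) else 0) = Nat.card T * r ∧ tr (ρ σ) = r - 3 * m := by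
  have he := (sg_one T).idem hρ
  have h1 := pr_conj hρ hn (μ := fun _ => 1) (ν := fun _ => 1) fun _ _ => rfl
  have h2 := (sg_one T).mul_pr hρ T.one_mem
  have h4 := tr_avg hρ T 1
  have h5 := tr_avg hρ T σ
  have h6 := tr_avg hρ T (σ * σ)
  set e := pr ρ T fun _ => 1
  have h7 : ∀ x, e * (ρ σ * x) = ρ σ * (e * x) := fun x => by rw [← mul_assoc, ← h1, mul_assoc]
  have h8 : ρ σ * e * (ρ σ * e) = ρ (σ * σ) * e := by rw [mul_assoc, h7, he, hρ, mul_assoc]
  rw [sum_congr rfl (g := fun g => if g ∈ T then tr (ρ σ) else 0) fun g _ => by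
    split_ifs with hg; exacts [(hc g hg).1, rfl], sum_const', mul_right_inj' (card_ne T)] at h5
  rw [sum_congr rfl (g := fun g => if g ∈ T then tr (ρ σ) else 0) fun g _ => by
    split_ifs with hg; exacts [(hc g hg).2, rfl], sum_const', mul_right_inj' (card_ne T)] at h6
  obtain ⟨r, m, k1, k2, k3⟩ := cube' (b := ρ σ * e) he (by rw [h7, he]) (by rw [mul_assoc, he])
    (by rw [h8, mul_assoc, hρ, mul_assoc, h7, h7, he, ← mul_assoc, ← mul_assoc, ← hρ, ← hρ, mul_assoc, h3, h2,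
      one_smul]) (by rw [h8, h5, h6])
  refine ⟨r, m, k1, ?_, h5 ▸ k3⟩
  simpa only [mul_one, h2, one_smul, k2] using h4.symm

end Cfsg.Agent.H51.MDeg
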