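/-
`M24` has no complex representation of degree at most 22 with the traces of the 23-dimensional one on involutions.
-/
import Cfsg.Agent.H51.MDegA
import Cfsg.Agent.H97.M24Cls

set_option autoImplicit false
set_option maxRecDepth 10000

namespace Cfsg.Agent.H51.MDeg

open Finset Module Classical H14 H97

noncomputable def fx (x : M24) : ℕ := fixN (GE.pk x)

theorem fx_one : fx 1 = 24 := by rw [fx, OneMemClass.coe_one, GE.pk_one]; decide +kernel

theorem rep (x : M24) {n : ℕ} (h : x ^ n = 1) : ∃ c ∈ m24Cl, (∃ a ∈ M24, a * GE.perm c.X * a⁻¹ = x) ∧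
    ordN (nat_lit 5) (nat_lit 32) (nat_lit 24) c.X 24 ∣ n ∧
    fx x = fixN (powP (nat_lit 5) (nat_lit 32) (nat_lit 24) c.X 1) := by
  obtain ⟨c, hc, h1, h2, h3, -⟩ := m24_rep x.2
  refine ⟨c, hc, h1, h2 ▸ orderOf_dvd_of_pow_eq_one (congrArg Subtype.val h), ?_⟩
  rw [← h3, pow_one, card_fix, fx]

theorem cls_eq : ∀ n ∈ [2, 27], ∀ c ∈ m24Cl, ordN (nat_lit 5) (nat_lit 32) (nat_lit 24) c.X 24 ∣ n →
    ∀ d ∈ m24Cl, ordN (nat_lit 5) (nat_lit 32) (nat_lit 24) d.X 24 ∣ n →
    fixN (powP (nat_lit 5) (nat_lit 32) (nat_lit 24) c.X 1) =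
      fixN (powP (nat_lit 5) (nat_lit 32) (nat_lit 24) d.X 1) → c.X = d.X := by decide +kernel

theorem cj {x y : M24} {n : ℕ} (hn : n ∈ [2, 27]) (hx : x ^ n = 1) (hy : y ^ n = 1) (e : fx x = fx y) :
    ∃ a, a * x * a⁻¹ = y := by
  obtain ⟨c, hc, ⟨a, ha, e1⟩, h1, h2⟩ := rep x hx
  obtain ⟨d, hd, ⟨b, hb, e2⟩, h3, h4⟩ := rep y hy
  rw [cls_eq n hn c hc h1 d hd h3 (h2.symm.trans (e.trans h4))] at e1
  refine ⟨⟨b, hb⟩ * ⟨a, ha⟩⁻¹, Subtype.ext ?_⟩
  simp only [Subgroup.coe_mul, Subgroup.coe_inv, ← e1, ← e2]
  group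

theorem fx_cases (x : M24) : (x ^ 2 = 1 → fx x = 24 ∨ fx x = 8 ∨ fx x = 0) ∧
    (x ^ 27 = 1 → fx x = 24 ∨ fx x = 6 ∨ fx x = 0) := by
  have := (by decide +kernel : ∀ c ∈ m24Cl, (ordN (nat_lit 5) (nat_lit 32) (nat_lit 24) c.X 24 ∣ 2 →
    fixN (powP (nat_lit 5) (nat_lit 32) (nat_lit 24) c.X 1) ∈ [24, 8, 0]) ∧
    (ordN (nat_lit 5) (nat_lit 32) (nat_lit 24) c.X 24 ∣ 27 →
    fixN (powP (nat_lit 5) (nat_lit 32) (nat_lit 24) c.X 1) ∈ [24, 6, 0]))
  constructor <;> intro h <;> obtain ⟨c, hc, -, h1, h2⟩ := rep x h <;> rw [h2]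
  exacts [by simpa using (this c hc).1 h1, by simpa using (this c hc).2 h1]

/-- `L` lists an elementary abelian 2-group on which `S` (order 3, `n` fixed points) acts freely -/
def okL (L : List ℕ) (S n : ℕ) : Prop := L.Nodup ∧ idP 5 24 ∈ L ∧ ∀ P ∈ L,
  (valid 5 32 24 P = true ∧ inM24 P = true ∧ comp 5 32 24 P P = idP 5 24 ∧ ∀ Q ∈ L, comp 5 32 24 P Q ∈ L) ∧
  (valid 5 32 24 S = true ∧ inM24 S = true ∧ comp3 5 32 24 S S S = idP 5 24 ∧ fixN S = n) ∧
  (comp3 5 32 24 S P (inv 5 32 24 S) ∈ L ∧ comp3 5 32 24 (inv 5 32 24 S) P S ∈ L) ∧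
  powP 5 32 24 (comp 5 32 24 P S) 27 = idP 5 24 ∧ fixN (comp 5 32 24 P S) = n ∧
  powP 5 32 24 (comp3 5 32 24 P S S) 27 = idP 5 24 ∧ fixN (comp3 5 32 24 P S S) = n

def LU : List ℕ := [984818244535754528103549039458486304, 984330238668445353307680420861740096,
  984561664131678682933695704404628576, 984365217902686453248235801272398976, 984232233431490913630068531325373600,
  984474077397641743376427032193378496, 984159739662526352166722481920720096, 984778551226145691544909149262458112,
  984035668360141982437242148508390688, 984106537951624291307853224808683840, 984723249968559545477841165439377760,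
  984193134333667655196206109968142752, 984067557695403189637163205127740896, 984389065579339274464679472059863648,
  984266143084858087375752989286682240, 983991419431302060320892116034627232]
def SU : ℕ := 984727884815936693577664640576564876
def LT : List ℕ := [984818244535754528103549039458486304, 984330238668445353307680420861740096,
  984365217902686453248235801272398976, 984159739662526352166722481920720096, 984193134333667655196206109968142752,
  984067557695403189637163205127740896, 984389065579339274464679472059863648, 984266143084858087375752989286682240,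
  603955154718359976499151100702951468, 522054791933104956808566456531060782, 944131723307792898212482985901688880,
  763739985385580392466918709179648049, 724473212807648482654584898459437106, 665005204768653909335115335077103670,
  21038703797431235591676386966079543, 604457738566853422793108771658911372, 522694361274510487849104922442317038,
  944571122697285497263621287552595088, 764122102813311204935758266349245041, 725182859458760064823791901961461234,
  665490754562320014943925135454864470, 21630538171563463488419040581489079, 604075621139160352362643989873230924,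
  521972434257868815385923140229694542, 943968235994142150170136555157816400, 763617062891136947416367001790383185,
  724553114409241554890169396541817938, 21199735037438914446963999490966615, 603972188773225059222673746665067116,
  522196531115314291946320343353957870, 944074520574608272458069408395465136, 763634096945964288101514872368582289,
  724707133956980980321898062075313394, 21153584633265407889292500764112023, 603745517000535721790144074082858124,
  522291367226561039341306937703871630, 763489782848548834130003291471656081, 724669223281897261559416988544349330,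
  664876696689244261233324284743890070, 604015764262154704908212775933976044, 522234085264799252759008193222562414,
  763689952800461766119403455732006129, 724732407740898108802236357849403026, 665029131673883890078928636708393398,
  603864557314034047159841123900701932, 944162820361088879663710147722820848, 664752348087498766771514079834717430,
  21110365669934520034698272141819127, 603816822346760744016045311604855212, 943905368447414161092011238981161584,
  664822425397204817900182617425485302, 20973380177022435288117477186522775, 522159848476749544281071969754223022,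
  763398828917944642697676714609906097, 724781093447329587413226617154245042, 522070597951110762678286987094773390,
  763516641194923996970141064496520689, 724571376500928171985323520708432498, 944030073574758413506242479841943024,
  21221007798847874791275200820485623, 943823010772140277630993147295878800, 20893478575467105090907754488058487,
  664941109185104385441562678885962358, 665061575605867019266680792672325270]
def ST : ℕ := 798806422617760985067868311854258511

theorem okU : okL LU SU 6 ∧ LU.length = 16 ∧ (LU.map fixN).sum = 144 := by unfold okL; decide +kernel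
theorem okT : okL LT ST 0 ∧ LT.length = 64 ∧ (LT.map fixN).sum = 192 := by unfold okL; decide +kernel

theorem eq1 {x : M24} (h : GE.pk x = idP 5 24) : x = 1 := Subtype.ext (GE.pk_inj.1 (h.trans GE.pk_one.symm))

variable {V : Type*} [AddCommGroup V] [Module ℂ V] [FiniteDimensional ℂ V] {ω : M24 → End ℂ V}
  (hω : ∀ a b, ω (a * b) = ω a * ω b)
include hω

theorem tr_cj {x y : M24} {n : ℕ} (hn : n ∈ [2, 27]) (hx : x ^ n = 1) (hy : y ^ n = 1) (e : fx x = fx y) :
    tr (ω x) = tr (ω y) := by
  obtain ⟨a, rfl⟩ := cj hn hx hy e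
  exact (tr_conj hω a x).symm

theorem use {L : List ℕ} {S n : ℕ} (h : okL L S n) {k : ℂ} (hk : ∀ x : M24, x ^ 2 = 1 → tr (ω x) = k + fx x) :
    ∃ (σ : M24) (r m : ℕ), σ ^ 27 = 1 ∧ fx σ = n ∧ 2 * m ≤ r ∧
      L.length * k + (L.map fixN).sum = L.length * r ∧ tr (ω σ) = r - 3 * m := by
  obtain ⟨h1, h2, h3⟩ := h
  have i2 : ∀ x : M24, GE.pk x ∈ L → x * x = 1 := fun x hx => eq1 ((GE.pk_mul _ _).trans (h3 _ hx).1.2.2.1)
  let T : Subgroup M24 :=
    { carrier := {x | GE.pk x ∈ L}
      one_mem' := (GE.pk_one ▸ h2 : GE.pk 1 ∈ L)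
      mul_mem' := fun {a b} ha hb => ((GE.pk_mul _ _).symm ▸ (h3 _ ha).1.2.2.2 _ hb : GE.pk (a * b) ∈ L)
      inv_mem' := fun {a} ha => by rwa [inv_eq_of_mul_eq_one_right (i2 a ha)] }
  obtain ⟨s1, s2, s3, s4⟩ := (h3 _ h2).2.1
  obtain ⟨σ, hσ, rfl⟩ := inG_M24 s1 s2
  lift σ to M24 using hσ
  have s5 : σ * (σ * σ) = 1 := eq1 (by rw [← mul_assoc]; exact (GE.pk_mul3 _ _ _).trans s3)
  have s6 : σ ^ 27 = 1 := by rw [show 27 = 3 * 9 from rfl, pow_mul, pow_three, s5, one_pow]
  have sm : ∀ F : ℕ → ℂ, ∑ g : M24, (if g ∈ T then F (GE.pk g) else 0) = (L.map F).sum := fun F => by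
    rw [← sum_filter, ← List.sum_toFinset _ h1]
    refine sum_bij (fun g _ => GE.pk g) (fun g hg => List.mem_toFinset.2 (mem_filter.1 hg).2)
      (fun a _ b _ e => Subtype.ext (GE.pk_inj.1 e)) (fun P hP => ?_) fun _ _ => rfl
    have hP := List.mem_toFinset.1 hP
    obtain ⟨g, hg, rfl⟩ := inG_M24 (h3 P hP).1.1 (h3 P hP).1.2.1
    exact ⟨⟨g, hg⟩, mem_filter.2 ⟨mem_univ _, hP⟩, rfl⟩
  obtain ⟨r, m, k1, k2, k3⟩ := frob hω (T := T) s5 (fun x => ⟨fun hx => by
      have := (h3 _ hx).2.2.1.2
      rwa [← GE.pk_inv, ← GE.pk_mul3, Subgroup.coe_mul, Subgroup.coe_mul, Subgroup.coe_inv, mul_assoc σ.1,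
        inv_mul_cancel_left, inv_mul_cancel_right] at this, fun hx => by
      have := (h3 _ hx).2.2.1.1
      rwa [← GE.pk_inv, ← GE.pk_mul3] at this⟩) fun t ht => by
    obtain ⟨-, -, -, a1, a2, a3, a4⟩ := h3 _ ht
    rw [← GE.pk_mul] at a1 a2
    rw [← GE.pk_mul3, mul_assoc] at a3 a4
    rw [← GE.pk_pow] at a1 a3
    exact ⟨tr_cj hω (by simp) (eq1 a1) s6 (a2.trans s4.symm), tr_cj hω (by simp) (eq1 a3) s6 (a4.trans s4.symm)⟩
  have c1 := sm fun _ => 1
  rw [sum_congr rfl (g := fun g : M24 => if g ∈ T then k + (fixN (GE.pk g) : ℂ) else 0) fun g _ => by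
    split_ifs with hg; exacts [hk g (by rw [pow_two, i2 g hg]), rfl], sm fun P => k + fixN P] at k2
  rw [sum_const'] at c1
  refine ⟨σ, r, m, s6, s4, k1, ?_, k3⟩
  simp only [List.map_const', List.sum_replicate, nsmul_eq_mul, mul_one, List.sum_map_add] at c1 k2
  rw [← c1, ← k2, c1, Nat.cast_list_sum, List.map_map]
  rfl

theorem m24_deg {k : ℕ} (hk : k ≤ 22) (h1 : tr (ω 1) = k) {a b : M24} (a1 : a ^ 2 = 1) (a2 : fx a = 8)
    (a3 : tr (ω a) = k - 16) (b1 : b ^ 2 = 1) (b2 : fx b = 0) (b3 : tr (ω b) = k - 24) : False := by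
  have h2 : ∀ x : M24, x ^ 2 = 1 → tr (ω x) = k - 24 + fx x := fun x hx => by
    rcases (fx_cases x).1 hx with e | e | e <;> rw [e]
    · rw [tr_cj hω (by simp) hx (one_pow 2) (e.trans fx_one.symm), h1]; push_cast; ring
    · rw [tr_cj hω (by simp) hx a1 (e.trans a2.symm), a3]; push_cast; ring
    · rw [tr_cj hω (by simp) hx b1 (e.trans b2.symm), b3]; push_cast; ring
  obtain ⟨σ, r, m, s1, s2, s3, s4, s5⟩ := use hω okU.1 h2
  obtain ⟨τ, r', m', t1, t2, t3, t4, t5⟩ := use hω okT.1 h2
  rw [okU.2.1, okU.2.2] at s4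
  rw [okT.2.1, okT.2.2] at t4
  have s6 : r + 15 = k := by
    have : ((r + 15 : ℕ) : ℂ) = k := by push_cast at s4 ⊢; linear_combination -s4 / 16
    exact_mod_cast this
  have t6 : r' + 21 = k := by
    have : ((r' + 21 : ℕ) : ℂ) = k := by push_cast at t4 ⊢; linear_combination -t4 / 64
    exact_mod_cast this
  obtain rfl : m' = 0 := by omega
  have : Fact (Nat.Prime 3) := ⟨Nat.prime_three⟩
  obtain ⟨P⟩ := (inferInstance : Nonempty (Sylow 3 M24))
  have hP : Nat.card (P : Subgroup M24) = 27 := by
    rw [Sylow.card_eq_multiplicity, card_M24, show 244823040 = 3 ^ 3 * 9067520 from rfl,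
      Nat.factorization_mul (by norm_num) (by norm_num), Nat.prime_three.factorization_pow,
      Finsupp.add_apply, Nat.factorization_eq_zero_of_not_dvd (by norm_num)]
    simp
  obtain ⟨N, hN⟩ := tr_nat ((sg_one (P : Subgroup M24)).idem hω)
  have c1 := tr_avg hω P 1
  have c2 := MulAction.sum_card_fixedBy_eq_card_orbits_mul_card_group (P : Subgroup M24) GolayPt
  rw [← Nat.card_eq_fintype_card (α := (P : Subgroup M24)), hP] at c2
  obtain ⟨O, c2⟩ : ∃ O : ℕ, _ = O * 27 := ⟨_, c2⟩
  have c3 : ∑ g, (if g ∈ (P : Subgroup M24) then (fx g : ℂ) else 0) = O * 27 := by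
    rw [← sum_filter, sum_subtype (p := (· ∈ (P : Subgroup M24))) _ (by simp), ← Nat.cast_sum,
      show (O : ℂ) * 27 = (O * 27 : ℕ) by push_cast; rfl, ← c2]
    refine congrArg _ (sum_congr rfl fun g _ => ?_)
    rw [fx, ← card_fix, Fintype.card_subtype]
    congr
  rw [(sg_one _).mul_pr hω (one_mem _), one_smul, hN, hP, sum_congr rfl (g := fun g =>
    (if g ∈ (P : Subgroup M24) then (r' : ℂ) else 0) + (1 - m / 2) * (if g ∈ (P : Subgroup M24) then (fx g : ℂ) else 0)
      + if g = 1 then (12 * m - 3 : ℂ) else 0) fun g _ => by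
    rw [mul_one]
    by_cases hg : g ∈ (P : Subgroup M24)
    · have g1 : g ^ 27 = 1 := by
        rw [← hP]; exact congrArg Subtype.val (pow_card_eq_one' (x := (⟨g, hg⟩ : (P : Subgroup M24))))
      simp only [hg, if_true]
      rcases (fx_cases g).2 g1 with e | e | e <;> rw [e]
      · obtain ⟨c, hc⟩ := cj (by simp) g1 (one_pow 27) (e.trans fx_one.symm)
        rw [conj_eq_one_iff.1 hc, h1, if_pos rfl, ← t6]; push_cast; ring
      · rw [tr_cj hω (by simp) g1 s1 (e.trans s2.symm), s5, if_neg (by rintro rfl; simp [fx_one] at e),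
          show r = r' + 6 by omega]; push_cast; ring
      · rw [tr_cj hω (by simp) g1 t1 (e.trans t2.symm), t5, if_neg (by rintro rfl; simp [fx_one] at e)]
        push_cast; ring
    · simp [hg, show g ≠ 1 by rintro rfl; exact hg (one_mem _)], sum_add_distrib, sum_add_distrib, sum_const',
    ← mul_sum, c3, sum_ite_eq', hP, if_pos (mem_univ _)] at c1
  have c4 : ((54 * N + 27 * (O * m) + 6 : ℕ) : ℂ) = (54 * r' + 54 * O + 24 * m : ℕ) := by
    push_cast at c1 ⊢; linear_combination 2 * c1
  have := Nat.cast_injective c4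
  omega

end Cfsg.Agent.H51.MDeg
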