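/-
A faithful complex representation of degree `< 196883` of a group of Monster type: the weights of `Q`.
-/
import Cfsg.Agent.H51.MDegA
import Cfsg.Agent.H15.Monster3
import Cfsg.Agent.H15.Monster4

set_option autoImplicit false
set_option linter.unusedSectionVars false

namespace Cfsg.Agent.H51.MDeg

open Finset Module Classical H15 H97 Subgroup MulAction

variable {G : Type*} [Group G]

noncomputable def sg (t a : G) : ℂ := if t * a = a * t then 1 else -1

theorem sg_pos {t a : G} (h : t * a = a * t) : sg t a = 1 := if_pos h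
theorem sg_neg {t a : G} (h : t * a ≠ a * t) : sg t a = -1 := if_neg h
theorem sg_comm (t a : G) : sg t a = sg a t := by simp only [sg, eq_comm]
theorem sg_one' (a : G) : sg 1 a = 1 := sg_pos (by simp)
theorem sg_conj (h t a : G) : sg (h * t * h⁻¹) (h * a * h⁻¹) = sg t a := by
  simp only [sg, conj_mul, mul_left_inj, mul_right_inj]

theorem lx_sg {Q : Subgroup G} {z t : G} (h : LX Q z) (ht : t ∈ Q) : Sg Q (sg t) := by
  refine ⟨fun a ha b hb => ?_, fun a _ => by unfold sg; split_ifs <;> simp⟩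
  have e : ∀ a, t * a = a * t ↔ a * t * a⁻¹ = t := fun a => by rw [mul_inv_eq_iff_eq_mul, eq_comm]
  have n : z * t ≠ t := by simpa using h.ne
  have k : a * b * t * (a * b)⁻¹ = a * (b * t * b⁻¹) * a⁻¹ := by group
  have k2 : a * (z * t) * a⁻¹ = z * (a * t * a⁻¹) := by rw [← mul_assoc, h.cen a ha]; group
  have k3 : z * (z * t) = t := by rw [← mul_assoc, h.sq, one_mul]
  simp only [sg, e, k]
  rcases h.comm a ha t ht with e1 | e1 <;> rcases h.comm b hb t ht with e2 | e2 <;> simp [e1, e2, k2, k3, n]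

theorem lx_norm {Q : Subgroup G} {z c : G} (h : LX Q z) (hc : c * z = z * c) (k : G) : c * k * c⁻¹ ∈ Q ↔ k ∈ Q :=
  ⟨fun hk => by simpa [mul_assoc] using h.norm c⁻¹ (Commute.inv_left hc) _ hk, h.norm c hc k⟩

theorem lx_conj {Q : Subgroup G} {z u : G} (h : LX Q z) (hu : u ∈ Q) (h1 : u ≠ 1) (h2 : u ≠ z) :
    IsConj u (u * z) := by
  by_contra hc
  refine not_or.2 ⟨h1, h2⟩ (h.large u fun a ha => ?_)
  rcases h.comm a ha u hu with e | e
  · exact (mul_inv_eq_iff_eq_mul.1 e).symm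
  · exact absurd (isConj_iff.2 ⟨a, e.trans (h.cen u hu).symm⟩) hc

variable [Fintype G] {V : Type*} [AddCommGroup V] [Module ℂ V] [FiniteDimensional ℂ V]

theorem sum_pr (ρ : G → End ℂ V) {Q T K : Subgroup G} {z : G} (h : LX Q z) (hT : T ≤ Q) (hK : K ≤ Q) :
    ∑ t with t ∈ T, pr ρ K (sg t) =
      ev ρ fun g => if g ∈ K ⊓ centralizer T then Nat.card T / Nat.card K else 0 := by
  simp only [pr]
  rw [ev_sum]
  refine congrArg (ev ρ) (funext fun g => ?_)
  by_cases hg : g ∈ K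
  · simp only [hg, if_true, ← sum_div, sum_filter, Subgroup.mem_inf, true_and, mem_centralizer_iff, SetLike.mem_coe]
    split_ifs with h1
    · rw [← mul_one (Nat.card T : ℂ), ← sum_const']
      exact congrArg (· / _) (sum_congr rfl fun t _ => by split_ifs with ht; exacts [sg_pos (h1 t ht), rfl])
    · push Not at h1
      obtain ⟨t, ht, e⟩ := h1
      simp only [sg_comm _ g]
      rw [((lx_sg h (hK hg)).mono hT).sum_zero ht (sg_neg e.symm), zero_div]
  · simp [hg]

theorem pr_half (ρ : G → End ℂ V) {Q : Subgroup G} {s z u : G} (h : LX Q s) (hz : z ∈ Q) (h1 : z ≠ 1)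
    (h2 : z ≠ s) (hu : u ∈ Q) :
    pr ρ (Q ⊓ centralizer {z}) (sg u) = pr ρ Q (sg u) + pr ρ Q (sg (u * z)) := by
  rw [pr, pr, pr, ev_add, ← (ex_of_lx h).card_cent1 hz h1 h2]
  refine congrArg (ev ρ) (funext fun g => ?_)
  have := card_ne (Q ⊓ centralizer {z})
  by_cases hg : g ∈ Q
  · simp only [Pi.add_apply, Subgroup.mem_inf, hg, true_and, if_true, mem_centralizer_singleton_iff, sg_comm _ g,
      (lx_sg h hg).mul u hu z hz]
    split_ifs with e
    · rw [sg_pos e]; push_cast; field_simp; ring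
    · rw [sg_neg e]; ring
  · simp [hg]

variable (ρ : G →* End ℂ V)

theorem lx_pr_conj {Q : Subgroup G} {z c : G} (h : LX Q z) (hc : c * z = z * c) (t : G) :
    ρ c * pr ρ Q (sg t) = pr ρ Q (sg (c * t * c⁻¹)) * ρ c :=
  pr_conj ρ.map_mul (lx_norm h hc) fun k _ => sg_conj c t k

theorem tr_of_conj {c : G} {x y : End ℂ V} (h : ρ c * x = y * ρ c) : tr x = tr y := by
  rw [← one_mul x, ← ρ.map_one, ← inv_mul_cancel c, ρ.map_mul, mul_assoc, h, tr_comm, mul_assoc, ← ρ.map_mul,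
    mul_inv_cancel, ρ.map_one, mul_one]

/-- the weights of `Q` -/
structure StA (Q : Subgroup G) (z : G) : Prop where
  zero : ∃ m : ℕ, m ≤ 298 ∧ tr (pr ρ Q (sg 1)) = m
  four : ∀ t ∈ Q, t ≠ z → IsConj z t → pr ρ Q (sg t) = 0
  two : ∀ t ∈ Q, t ≠ 1 → t * t = 1 → ¬ IsConj z t → tr (pr ρ Q (sg t)) = 1 ∧
    ∀ c, c * z = z * c → c * t = t * c → ρ c * pr ρ Q (sg t) = pr ρ Q (sg t)

variable {z : G} {Q : Subgroup G} {π : centralizer ({z} : Set G) →* Spor.Co1} {R : G → leechLattice → Prop}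
  (M : MD z Q π R)
include M

theorem card_ge (P : Vec → Prop) (hP : {v : leechLattice | P v}.Finite) (k : ℕ)
    (h : ∀ a : leechLattice, P a → {x : leechLattice | P x ∧ (x : leechLattice ⧸ twoL) = a}.ncard ≤ k) :
    2 * {x : Vec | x ∈ leechLattice ∧ P x}.ncard ≤ k * #{t | ∃ v, R t v ∧ P v} := by
  have h1 := ncard_le_mul_image hP (QuotientAddGroup.mk : _ → leechLattice ⧸ twoL) k h
  have h2 := M.ncard_pre (QuotientAddGroup.mk '' {v : leechLattice | P v})
  rw [← ncard_subtype, ← Set.ncard_coe_finset, coe_filter]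
  rw [show {a | ∃ v, R a v ∧ (v : leechLattice ⧸ twoL) ∈ QuotientAddGroup.mk '' {v : leechLattice | P v}} =
    {t | t ∈ univ ∧ ∃ v, R t v ∧ P v} from Set.ext fun a => ⟨fun ⟨v, h, w, hw, e⟩ =>
      ⟨mem_univ _, w, M.of_mk_eq h e, hw⟩, fun ⟨_, v, h, hv⟩ => ⟨v, h, v, hv, rfl⟩⟩] at h2
  rw [h2]
  nlinarith

theorem fix_two {t c : G} {v : leechLattice} (h : R t v) (hv : sqNorm (v : Vec) = 32)
    (h1 : tr (pr ρ Q (sg t)) = 1) (hz : c * z = z * c) (ht : c * t = t * c) :
    ρ c * pr ρ Q (sg t) = pr ρ Q (sg t) := by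
  have S := lx_sg M.lx (M.mem h)
  obtain ⟨n1, n2⟩ := M.ne_of_short h (by omega) (by omega)
  let H := centralizer ({z} : Set G) ⊓ centralizer ({t} : Set G)
  have k1 : ∀ c : H, ρ c * pr ρ Q (sg t) = tr (ρ c * pr ρ Q (sg t)) • pr ρ Q (sg t) := fun c =>
    rank_one (S.idem ρ.map_mul) h1 (by
      rw [lx_pr_conj ρ M.lx (mem_centralizer_singleton_iff.1 c.2.1), mem_centralizer_singleton_iff.1 c.2.2,
        mul_inv_cancel_right])
  let l : H →* ℂ := ⟨⟨fun c => tr (ρ c * pr ρ Q (sg t)), by simp [h1]⟩, fun a b => by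
    simp only [Subgroup.coe_mul, map_mul]
    rw [mul_assoc, k1 b, mul_smul_comm, map_smul, map_smul, h1, smul_eq_mul, smul_eq_mul, mul_one, mul_comm]⟩
  obtain ⟨θ, hθ⟩ := exists_hom_of_range (π.comp (inclusion (inf_le_left : H ≤ _)))
    ((QuotientGroup.mk' _).comp (stabilizer Co0 v).subtype) (fun k => by
      obtain ⟨c, e1, e2⟩ := M.lift_cent (k := k) h (by rw [show (k : Co0) • _ = _ from k.2]; exact h) n1 n2
      exact ⟨⟨c, c.2, mem_centralizer_singleton_iff.2 (mul_inv_eq_iff_eq_mul.1 e2)⟩, e1.symm⟩)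
    l.toHomUnits fun a ha => Units.ext (by
      change tr (ρ a * _) = 1
      rw [S.mul_pr ρ.map_mul (a := a) ((M.ker _).1 ha), sg_pos (mem_centralizer_singleton_iff.1 a.2.2).symm, one_smul, h1])
  have := simple_Co2 v hv
  have k2 : θ.ker = ⊤ := (IsSimpleGroup.eq_bot_or_eq_top_of_normal _ inferInstance).resolve_left fun e => by
    let _ : CommGroup (stabilizer Co0 v) := { (inferInstance : Group _) with
      mul_comm := fun a b => θ.ker_eq_bot_iff.1 e (by rw [map_mul, map_mul, mul_comm]) }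
    have := IsSimpleGroup.prime_card (α := stabilizer Co0 v)
    rw [card_stab32 v hv] at this
    norm_num at this
  let c' : H := ⟨c, mem_centralizer_singleton_iff.2 hz, mem_centralizer_singleton_iff.2 ht⟩
  obtain ⟨k, e⟩ := MD.lift' (π := π) ⟨c, c'.2.1⟩
  obtain ⟨w, hw⟩ := (M.mem_pb_cent h n1 n2).1 (mem_pb.2 ⟨_, c'.2, e⟩)
  obtain ⟨k', e1, e2⟩ := exists_fix_of_congr hv hw
  have k3 : tr (ρ c' * pr ρ Q (sg t)) = 1 := congrArg Units.val ((hθ ⟨k', e2⟩ c' (e1.trans e).symm).symm.trans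
    (show _ ∈ θ.ker from k2 ▸ mem_top _))
  rw [k1 c', k3, one_smul]

theorem stA0 {g : G} (hs : g * z * g⁻¹ ∈ Q) (hne : g * z * g⁻¹ ≠ z) (h8 : R (g * z * g⁻¹) (e8 none))
    (hz : ρ z ≠ 1) (hn : finrank ℂ V < 196883) : StA ρ Q z := by
  have hρ := ρ.map_mul
  have c0 : ∑ t with t ∈ Q, pr ρ Q (sg t) = 1 + ρ z := by
    rw [sum_pr ρ M.lx le_rfl le_rfl, div_self (card_ne Q), ev, sum_congr rfl (g := fun g =>
      (if g = 1 then ρ g else 0) + if g = z then ρ g else 0) fun g _ => by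
      have : g ∈ Q ⊓ centralizer Q ↔ g = 1 ∨ g = z := ⟨fun h => M.lx.large g fun a ha => (h.2 a ha).symm, by
        rintro (rfl | rfl); exacts [one_mem _, ⟨M.lx.mem, M.lx.cen⟩]⟩
      rw [this]
      by_cases h1 : g = 1 <;> by_cases h2 : g = z <;> simp_all [M.lx.ne, M.lx.ne.symm], sum_add_distrib]
    simp
  choose m hm using fun t : Q => tr_nat ((lx_sg M.lx t.2).idem hρ)
  let m' : G → ℕ := fun t => if h : t ∈ Q then m ⟨t, h⟩ else 0
  have hm' : ∀ t ∈ Q, tr (pr ρ Q (sg t)) = m' t := fun t ht => by simp only [m', dif_pos ht, ← hm]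
  clear_value m'
  obtain ⟨N, hN⟩ := tr_nat (e := (2⁻¹ : ℂ) • (1 - ρ z)) (by
    simp only [smul_mul_smul_comm, mul_sub, sub_mul, mul_one, one_mul, ← hρ, M.lx.sq, map_one]; module)
  have hN0 : N ≠ 0 := by
    rintro rfl
    have := eq_zero (e := (2⁻¹ : ℂ) • (1 - ρ z)) (by
      simp only [smul_mul_smul_comm, mul_sub, sub_mul, mul_one, one_mul, ← hρ, M.lx.sq, map_one]; module)
      (by simpa using hN)
    exact hz (sub_eq_zero.1 ((smul_eq_zero.1 this).resolve_left (by norm_num))).symm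
  rw [map_smul, map_sub, LinearMap.trace_one, smul_eq_mul] at hN
  have c1 : ∑ t with t ∈ Q, m' t + 2 * N = 2 * finrank ℂ V := by
    have := congrArg tr c0
    rw [map_sum, map_add, LinearMap.trace_one, sum_congr rfl fun t ht => hm' t (mem_filter.1 ht).2] at this
    have : ((∑ t with t ∈ Q, m' t + 2 * N : ℕ) : ℂ) = (2 * finrank ℂ V : ℕ) := by
      push_cast; linear_combination this - 2 * hN
    exact_mod_cast this
  have me : ∀ {t t' v v'}, R t v → R t' v' → sqNorm (v' : Vec) = sqNorm (v : Vec) →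
      sqNorm (v : Vec) = 32 ∨ sqNorm (v : Vec) = 48 ∨ sqNorm (v : Vec) = 64 → m' t' = m' t :=
    fun {t t' v v'} h h' e hv => by
    obtain ⟨k, rfl⟩ : ∃ k : Co0, k • v = v' := by
      rcases hv with hv | hv | hv
      exacts [trans32 _ _ hv (e.trans hv), trans48 _ _ hv (e.trans hv), trans64 _ _ hv (e.trans hv)]
    obtain ⟨n1, n2⟩ := M.ne_of_short h' (by omega) (by omega)
    obtain ⟨c, -, rfl⟩ := M.lift_cent h h' n1 n2
    have := tr_of_conj ρ (lx_pr_conj ρ M.lx (mem_centralizer_singleton_iff.1 c.2) t)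
    rw [hm' _ (M.mem h), hm' _ (M.mem h')] at this
    exact_mod_cast this.symm
  have big : ∀ t v, R t v → sqNorm (v : Vec) = 48 ∨ sqNorm (v : Vec) = 64 → m' t = 0 := fun t v h hv => by
    have h1 := card_nsmul_le_sum {t' | ∃ v', R t' v' ∧ sqNorm (v' : Vec) = sqNorm (v : Vec)} m' (m' t)
      fun t' ht' => by obtain ⟨v', h1, h2⟩ := (mem_filter.1 ht').2; rw [me h h1 h2 (Or.inr hv)]
    have h2 := h1.trans (sum_le_sum_of_subset (t := {t | t ∈ Q}) fun t' ht' => by
      obtain ⟨v', h1, -⟩ := (mem_filter.1 ht').2; exact mem_filter.2 ⟨mem_univ _, M.mem h1⟩)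
    have h3 := card_ge M (fun x => sqNorm x = 48) (finite_norm 48) 2 (fiber_le_two (by norm_num) (by norm_num))
    have h4 := card_ge M (fun x => sqNorm x = 64) (finite_norm 64) 48 fun a ha => by
      rw [← S1569.result a a.2 ha]
      refine Set.ncard_le_ncard_of_injOn Subtype.val ?_ Subtype.val_injective.injOn
        ((finite_sqNorm_le 64).subset fun y hy => le_of_eq (hy.2.1.trans ha))
      rintro y ⟨h1, h2⟩
      exact ⟨y.2, h1.trans ha.symm, (mk_eq_iff _ _).1 h2.symm⟩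
    rw [ncard_norm48] at h3
    rw [ncard_norm64] at h4
    by_contra h0
    have h5 := (Nat.mul_le_mul_left _ (Nat.pos_of_ne_zero h0)).trans h2
    rcases hv with hv | hv <;> rw [hv] at h5 <;> omega
  obtain ⟨u, hu⟩ := M.ex' uu
  have dec : ∀ x ∈ Q, tr (ρ x) + tr (ρ (x * z)) =
      2 * m' 1 + m' u * ∑ t with ∃ v, R t v ∧ sqNorm (v : Vec) = 32, sg t x := fun x hx => by
    have := congrArg (fun y => tr (ρ x * y)) c0
    simp only [mul_sum, map_sum, mul_add, map_add, mul_one, ← hρ] at this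
    have k : ∀ y : G, ∑ t, (if t = y then (m' 1 : ℂ) else 0) = m' 1 := fun y => by simp
    rw [← this, mul_sum, sum_filter, sum_filter, show 2 * (m' 1 : ℂ) = _ + _ from (two_mul _).trans
      (congrArg₂ _ (k 1).symm (k z).symm), add_assoc, ← sum_add_distrib, ← sum_add_distrib]
    refine sum_congr rfl fun t _ => ?_
    have n0 : ∀ t, t = 1 ∨ t = z → ¬ ∃ v, R t v ∧ sqNorm (v : Vec) = 32 := fun t ht ⟨v, h1, h2⟩ =>
      not_or.2 (M.ne_of_short h1 (by omega) (by omega)) ht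
    by_cases ht : t ∈ Q
    · rw [if_pos ht, (lx_sg M.lx ht).mul_pr hρ hx, map_smul, hm' t ht, smul_eq_mul]
      rcases M.short ht with (rfl | rfl) | ⟨v, h1, h2⟩
      · simp [n0, sg_one', M.lx.ne.symm]
      · rw [← hm' _ ht, ← hm' _ Q.one_mem, pr_congr ρ (ν := sg 1) fun a ha => by
          rw [sg_one', sg_pos (M.lx.cen a ha).symm], sg_pos (M.lx.cen x hx).symm]
        simp [n0, M.lx.ne]
      · obtain ⟨n1, n2⟩ := M.ne_of_short h1 (by omega) (by omega)
        rw [if_neg n1, if_neg n2, zero_add, zero_add]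
        rcases h2 with h2 | h2
        · rw [if_pos ⟨v, h1, h2⟩, me hu h1 (h2.trans sqNorm_uu.symm) (Or.inl sqNorm_uu), mul_comm]
        · rw [big t v h1 h2, if_neg, Nat.cast_zero, mul_zero]
          rintro ⟨v', h3, h4⟩
          have := M.norm_eq h1 h3 (by omega) (by omega) (by omega) (by omega)
          omega
    · rw [if_neg ht, if_neg (by rintro rfl; exact ht Q.one_mem), if_neg (by rintro rfl; exact ht M.lx.mem),
        if_neg fun ⟨v, h, _⟩ => ht (M.mem h)]
      simp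
  have d1 := dec 1 Q.one_mem
  have d2 := dec _ hs
  obtain ⟨a, ha⟩ := isConj_iff.1 (lx_conj M.lx hs (M.cj g).lx.ne hne)
  rw [← ha, tr_conj hρ, tr_conj hρ, tr_conj hρ, sum_congr rfl (g := fun t => 1 - 2 * if ∃ v, R t v ∧ (sqNorm (v : Vec) = 32 ∧
      ∀ i, (v : Vec) i ∈ ({-3, -1, 1, 3} : Finset ℤ)) then 1 else 0) fun t ht => by
    obtain ⟨v, h1, h2⟩ := (mem_filter.1 ht).2
    have k : ∀ v, R t v → (t * (g * z * g⁻¹) = g * z * g⁻¹ * t ↔ (v : Vec) none % 2 = 0) := fun v h => by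
      rw [M.comm_iff h h8, dot_e8]; omega
    split_ifs with h3
    · obtain ⟨w, h4, -, h5⟩ := h3
      rw [sg_neg ((k w h4).not.2 (by have := h5 none; simp only [mem_insert, mem_singleton] at this; omega))]
      norm_num
    · rw [sg_pos ((k v h1).2 (by_contra fun h4 => h3 ⟨v, h1, h2, fun i => by
        have a1 := ((parity_cases v.2).resolve_left fun h => h4 (h.1 none)).1 i
        have a3 := (shape32 v.2 h2).imp (·.abs_cases (by omega) i) (Or.imp (·.abs_cases (by omega) i)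
          (·.abs_cases (by omega) i))
        have a2 := abs_le.1 (show |(v : Vec) i| ≤ 4 by omega)
        simp only [mem_insert, mem_singleton]
        omega⟩)), mul_zero, sub_zero], sum_sub_distrib, ← mul_sum, sum_boole, filter_filter,
      filter_congr (q := fun t => ∃ v, R t v ∧ (sqNorm (v : Vec) = 32 ∧
      ∀ i, (v : Vec) i ∈ ({-3, -1, 1, 3} : Finset ℤ))) fun t _ => and_iff_right_of_imp fun ⟨v, h1, h2⟩ =>
      ⟨v, h1, h2.1⟩] at d2
  simp only [sg_comm _ (1 : G), sg_one', one_mul, map_one, LinearMap.trace_one] at d1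
  rw [sum_const, nsmul_eq_mul, mul_one] at d1 d2
  have h3 := card_ge M (fun x => sqNorm x = 32) (finite_norm 32) 2 (fiber_le_two (by norm_num) (by norm_num))
  have h4 := card_ge M (fun x => sqNorm x = 32 ∧ ∀ i, x i ∈ ({-3, -1, 1, 3} : Finset ℤ))
    ((finite_norm 32).subset fun _ h => h.1) 2 fun a ha => (Set.ncard_le_ncard (fun x hx => And.intro hx.1.1 hx.2)
      ((finite_norm 32).subset fun _ h => h.1)).trans (fiber_le_two (by norm_num) (by norm_num) a ha.1)
  rw [ncard_norm32] at h3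
  rw [show {x : Vec | x ∈ leechLattice ∧ sqNorm x = 32 ∧ ∀ i, x i ∈ ({-3, -1, 1, 3} : Finset ℤ)}.ncard = 98304 from
    (ncard_vals _ (by decide) 8).trans (by decide +kernel)] at h4
  generalize #{t | ∃ v, R t v ∧ sqNorm (v : Vec) = 32} = A at h3 d1 d2
  generalize #{t | ∃ v, R t v ∧ sqNorm (v : Vec) = 32 ∧ ∀ i, (v : Vec) i ∈ ({-3, -1, 1, 3} : Finset ℤ)} = B
    at h4 d2
  have e1 : ((2 * finrank ℂ V : ℕ) : ℂ) = (2 * m' 1 + m' u * A + 2 * (m' u * B) : ℕ) := by
    push_cast; linear_combination 2 * d1 - d2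
  have e2 : ((2 * N : ℕ) : ℂ) = (2 * (m' u * B) : ℕ) := by push_cast; linear_combination d1 - d2 - 2 * hN
  have e1 := Nat.cast_injective e1
  have e2 := Nat.cast_injective e2
  have m1 : m' u = 1 := by
    rcases Nat.lt_trichotomy (m' u) 1 with h | h | h
    · rw [Nat.lt_one_iff.1 h] at e2; omega
    · exact h
    · have := Nat.mul_le_mul_right A h
      have := Nat.mul_le_mul_right B h
      omega
  rw [m1] at e1
  refine ⟨⟨m' 1, by omega, hm' 1 Q.one_mem⟩, fun t ht h1 h2 => ?_, fun t ht h1 h2 h3 => ?_⟩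
  · obtain ⟨c, rfl⟩ := isConj_iff.1 h2
    obtain ⟨v, h3, h4⟩ := M.type_four ht h1
    exact eq_zero ((lx_sg M.lx ht).idem hρ) (by rw [hm' _ ht, big _ v h3 (Or.inr h4), Nat.cast_zero])
  · obtain ⟨v, h4, h5⟩ := M.type_two hs hne ht h1 h2 h3
    have : tr (pr ρ Q (sg t)) = 1 := by
      rw [hm' t ht, me hu h4 (h5.trans sqNorm_uu.symm) (Or.inl sqNorm_uu), m1, Nat.cast_one]
    exact ⟨this, fun c => fix_two ρ M h4 h5 this⟩

theorem stA {g : G} (hs : g * z * g⁻¹ ∈ Q) (hne : g * z * g⁻¹ ≠ z) (hz : ρ z ≠ 1)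
    (hn : finrank ℂ V < 196883) : StA ρ Q z :=
  let ⟨k, hk⟩ := M.exists_twist hs hne
  stA0 ρ (M.twist k) hs hne hk hz hn

end Cfsg.Agent.H51.MDeg
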