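/-
A faithful complex representation of a group of Monster type has degree at least 196883.
-/
import Cfsg.Agent.H51.MDegB
import Cfsg.Agent.H51.MDegC
import Cfsg.Agent.H15.Maximal

set_option autoImplicit false
set_option linter.unusedSectionVars false

namespace Cfsg.Agent.H51.MDeg

open Finset Module Classical H15 H97 Subgroup
open H14 (bits rows GE)

def Du (v : Vec) (i j : GolayPt) : Prop := i ≠ j ∧ |v i| = 4 ∧ |v j| = 4 ∧ ∀ l, l ≠ i → l ≠ j → v l = 0

def par (c : Finset GolayPt) (i j : GolayPt) : ℤ := if (i ∈ c ↔ j ∈ c) then 1 else -1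

theorem du_w4 {i j : GolayPt} (h : i ≠ j) : Du (w4 i j 1 rfl : Vec) i j := by
  simp +contextual [Du, w4_apply, h, h.symm]

theorem par_ne {i j : GolayPt} (h : i ≠ j) : ∃ c, IsCw c ∧ par c i j = -1 := by
  obtain ⟨σ, rfl, rfl⟩ := exists_perm2 (a := none) (b := some 0) (by decide) h
  obtain ⟨c, hc, h1, h2, -⟩ := exists_cw_pattern True False True True
  exact ⟨_, isCw_smul σ.2 hc, by simp [par, mem_perm_smul, h1, h2]⟩

theorem par_sep {i j k l : GolayPt} (h : i ≠ j) (h' : k ≠ l) (e : ∀ c, IsCw c → par c i j = par c k l) :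
    (k, l) = (i, j) ∨ (k, l) = (j, i) := by
  have h1 : ∀ (d : Finset GolayPt) (i j : GolayPt), i ≠ j → (Even #(d ∩ {i, j}) ↔ par d i j = 1) := fun d i j h => by
    by_cases a : i ∈ d <;> by_cases b : j ∈ d <;> simp [par, a, b, h, inter_insert_of_mem, inter_insert_of_notMem]
  have h2 := (isCw_of_even (e := symmDiff {i, j} {k, l}) fun d hd => by
    have h3 := (h1 d i j h).trans (e d hd ▸ (h1 d k l h').symm)
    have h4 := card_sdiff_add_card_inter (d ∩ {i, j}) (d ∩ {k, l})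
    have h5 := card_sdiff_add_card_inter (d ∩ {k, l}) (d ∩ {i, j})
    rw [inter_comm (d ∩ {k, l})] at h5
    rw [← inf_eq_inter, inf_symmDiff_distrib_left, symmDiff_def, sup_eq_union,
      card_union_of_disjoint disjoint_sdiff_sdiff, inf_eq_inter, inf_eq_inter]
    simp only [Nat.even_iff] at h3 ⊢
    omega).card_cases
  have h3 := (card_le_card (symmDiff_le_sup (a := ({i, j} : Finset GolayPt)) (b := {k, l}))).trans (card_union_le _ _)
  rw [card_pair h, card_pair h'] at h3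
  have h4 := congrArg SetLike.coe (symmDiff_eq_bot.1 (card_eq_zero.1 (by omega : #(symmDiff {i, j} {k, l}) = 0)))
  simpa [Set.pair_eq_pair_iff, eq_comm, and_comm] using h4

theorem Du.mono {v : leechLattice} {i j : GolayPt} (d : Du v i j) (σ : M24) (c : Finset GolayPt) (hc : IsCw c) :
    Du ((signC c hc * permC σ) • v : leechLattice) (σ.1 i) (σ.1 j) := by
  rw [mono_apply]
  refine ⟨σ.1.injective.ne d.1, ?_, ?_, fun l h1 h2 => ?_⟩ <;> simp only [signedPerm, Equiv.symm_apply_apply]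
  · split_ifs <;> simp [d.2.1]
  · split_ifs <;> simp [d.2.2.1]
  · simp [d.2.2.2 _ (σ.1.symm_apply_eq.not.2 h1) (σ.1.symm_apply_eq.not.2 h2)]

theorem mono_w4 {i j : GolayPt} (σ : M24) {c : Finset GolayPt} (hc : IsCw c) (h : σ.1 i ∈ c ↔ σ.1 j ∈ c) :
    (signC c hc * permC σ) • w4 i j 1 rfl = w4 (σ.1 i) (σ.1 j) 1 rfl ∨
      (signC c hc * permC σ) • w4 i j 1 rfl = -w4 (σ.1 i) (σ.1 j) 1 rfl := by
  by_cases hi : σ.1 i ∈ c
  on_goal 1 => right
  on_goal 2 => left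
  all_goals
    refine Subtype.ext (funext fun l => ?_)
    simp only [mono_apply, signedPerm, w4_apply, Equiv.symm_apply_eq, AddSubgroup.coe_neg, Pi.neg_apply]
    split_ifs <;> simp_all

theorem w4_comm (i j : GolayPt) : w4 i j 1 rfl = w4 j i 1 rfl :=
  Subtype.ext (funext fun l => by rw [w4_apply, w4_apply, add_comm, mul_one])

theorem xi_conj (x : M24) {c c' : Finset GolayPt} (hc : IsCw c) (hc' : IsCw c') (H : ∀ i j, xiMat (x.1 i) j *
    (if j ∈ c then -1 else 1) = (if x.1 i ∈ c' then -1 else 1) * xiMat i j) :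
    xi * signC c hc = signC c' hc' * permC x * xi := co0_ext fun v => Subtype.ext (funext fun l => by
  obtain ⟨i, rfl⟩ := x.1.surjective l
  have h1 := xi_apply (signC c hc • v) (x.1 i)
  rw [sum_congr rfl (g := fun j => (if x.1 i ∈ c' then -1 else 1) * (xiMat i j * (v : Vec) j)) fun j _ => by
    rw [← mul_assoc, ← H, signC_apply]; split_ifs <;> ring, ← mul_sum, ← xi_apply] at h1
  rw [mul_smul, mul_smul, mul_smul, signC_apply, permC_apply']
  split_ifs at h1 ⊢ <;> omega)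

/-- an involution `x` of `M24` such that `ε_c` is conjugate to `ε_c' x` -/
def Inst (n : ℕ) (a : ℤ) : Prop := ∃ (x : M24) (c c' : Finset GolayPt) (hc : IsCw c) (hc' : IsCw c'),
  x ^ 2 = 1 ∧ fx x = n ∧ xi * signC c hc = signC c' hc' * permC x * xi ∧
  (∀ i j, (x.1 i, x.1 j) = (i, j) ∨ (x.1 i, x.1 j) = (j, i) → i ≠ j → (x.1 i ∈ c' ↔ x.1 j ∈ c')) ∧
  ∑ d ∈ univ.offDiag, par c d.1 d.2 = 2 * a + ∑ d ∈ (univ : Finset GolayPt).offDiag,
    if (x.1 d.1, x.1 d.2) = (d.1, d.2) ∨ (x.1 d.1, x.1 d.2) = (d.2, d.1) then 1 else 0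

theorem inst : Inst 8 (-16) ∧ Inst 0 (-24) := by
  constructor
  on_goal 1 =>
    obtain ⟨x, hx, e⟩ := H14.inG_M24 (P := 21647169741103660076458455793304663) (by decide +kernel) (by decide +kernel)
    refine ⟨⟨x, hx⟩, bits 13062145, bits 10558, ?_⟩
  on_goal 2 =>
    obtain ⟨x, hx, e⟩ := H14.inG_M24 (P := 63098155598130777866857538834072290) (by decide +kernel) (by decide +kernel)
    refine ⟨⟨x, hx⟩, bits 8245261, bits 8531954, ?_⟩
  all_goals
    have k := GE.apply_eq x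
    rw [e] at k
    refine ⟨isCw_bits (by decide +kernel), isCw_bits (by decide +kernel), eq1 ?_, ?_, xi_conj _ _ _ ?_, ?_, ?_⟩
    · rw [Subgroup.coe_pow, GE.pk_pow, e]; decide +kernel
    · rw [fx, e]; decide +kernel
    all_goals
      simp only [k, par, H14.mem_bits]
      decide +kernel

variable {G : Type*} [Group G] [Fintype G] {V : Type*} [AddCommGroup V] [Module ℂ V] [FiniteDimensional ℂ V]
  {ρ : G →* End ℂ V} {z g : G} {Q : Subgroup G} {π : centralizer ({z} : Set G) →* Spor.Co1}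
  {R : G → leechLattice → Prop} (M : MD z Q π R) (hs : g * z * g⁻¹ ∈ Q) (hne : g * z * g⁻¹ ≠ z)
include M hne

theorem sgw {u : G} {v : leechLattice} {i j : GolayPt} (hu : R u v) (hu' : u ∈ cjs g Q)
    (hv : sqNorm (v : Vec) = 32) (d : Du v i j) {a : centralizer ({z} : Set G)} (ha : a.1 ∈ cjs g Q)
    {c : Finset GolayPt} {hc : IsCw c} (e : (signC c hc : Spor.Co1) = π a) : sg u a = par c i j := by
  have h1 := M.conj a _ e hu
  obtain ⟨-, d1, d2, d3⟩ := d
  unfold par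
  split_ifs with p
  · have h2 : R (a * u * (a : G)⁻¹) v := by
      by_cases hi : i ∈ c
      · refine (show -(signC c hc • v) = v from Subtype.ext (funext fun l => ?_)) ▸ M.neg h1
        rw [AddSubgroup.coe_neg, Pi.neg_apply, signC_apply]
        by_cases e1 : l = i <;> by_cases e2 : l = j <;> simp_all
      · refine (show signC c hc • v = v from Subtype.ext (funext fun l => ?_)) ▸ h1
        rw [signC_apply]
        by_cases e1 : l = i <;> by_cases e2 : l = j <;> simp_all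
    rw [Int.cast_one, sg_pos]
    rw [eq_comm, ← mul_inv_eq_iff_eq_mul]
    exact (M.uniq hu h2).resolve_right fun e1 => ((M.cj g).lx.comm a ha u hu').elim
      (fun e2 => M.lx.ne (mul_eq_right.1 (e1.symm.trans e2))) fun e2 => hne (mul_right_cancel (e2.symm.trans e1))
  · rw [sg_neg, Int.cast_neg, Int.cast_one]
    intro e1
    rw [← e1, mul_inv_cancel_right] at h1
    obtain ⟨w, hw⟩ := M.congr hu h1
    have hn : sqNorm ((signC c hc • v : leechLattice) : Vec) = 32 := by rw [co0_norm, hv]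
    rcases (short_congr hw (by omega) (by omega) (by omega) (by omega)).2 (by omega) with r | r <;>
      have r1 := congrArg (fun x : leechLattice => (x : Vec) i) r <;>
      have r2 := congrArg (fun x : leechLattice => (x : Vec) j) r <;>
      simp only [AddSubgroup.coe_neg, Pi.neg_apply, signC_apply] at r1 r2 <;>
      split_ifs at r1 r2 <;> first | tauto | (rw [abs_eq (by norm_num)] at d1 d2; omega)

variable (h8 : R (g * z * g⁻¹) (e8 none))
include hs h8

omit hs in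
theorem exL (σ : M24) (c : Finset GolayPt) (hc : IsCw c) : ∃ h : centralizer ({z} : Set G),
    h * (g * z * g⁻¹) = g * z * g⁻¹ * h ∧ (signC c hc * permC σ : Co0) = π h := by
  obtain ⟨h, h1, e⟩ := mem_pb.1 (M.pb_L hne h8 ▸ mem_monoN.2 ⟨σ, c, hc, rfl⟩)
  exact ⟨h, mem_centralizer_singleton_iff.1 h1.2, e⟩

theorem exA (c : Finset GolayPt) (hc : IsCw c) : ∃ a : centralizer ({z} : Set G),
    a.1 ∈ cjs g Q ∧ (signC c hc : Spor.Co1) = π a := by
  obtain ⟨h, h1, e⟩ := mem_pb.1 ((M.pb_A hs hne h8).1 ▸ signC_mem_signG c hc)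
  exact ⟨h, h1.1, e⟩

theorem exA' {a : G} (ha : a ∈ cjs g Q ⊓ centralizer {z}) : ∃ c hc, (signC c hc : Spor.Co1) = π ⟨a, ha.2⟩ := by
  obtain ⟨k, e⟩ := MD.lift' (π := π) ⟨a, ha.2⟩
  obtain ⟨c, hc, rfl⟩ := mem_signG.1 ((M.pb_A hs hne h8).1 ▸ mem_pb.2 ⟨_, ha, e⟩)
  exact ⟨c, hc, e⟩

theorem mem_E {t : G} {i j : GolayPt} (hij : i ≠ j) (ht : R t (w4 i j 1 rfl)) : t ∈ cjs g Q := by
  have hc : IsCw (bits 13062145) := isCw_bits (by decide +kernel)
  have ho : IsCw (bits 12222476) := isCw_bits (by decide +kernel)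
  obtain ⟨a, ha, e⟩ := exA M hs hne h8 _ hc
  obtain ⟨q, hq⟩ := M.ex' ⟨_, vTwo_mem ho⟩
  have h1 := (M.comm_iff hq h8).2 (by
    rw [dot_e8]; exact (by decide +kernel : (16 : ℤ) ∣ 8 * vTwo (bits 12222476) none))
  have h2 := M.neg (M.mul (M.conj a _ e hq) (M.neg (M.inv hq)))
  have h3 : a * q * (a : G)⁻¹ * q⁻¹ ∈ cjs g Q := by
    simpa [mul_assoc] using (cjs g Q).mul_mem ha ((M.cj g).lx.norm q h1 _ ((cjs g Q).inv_mem ha))
  rw [show -(signC _ hc • ⟨_, vTwo_mem ho⟩ + -⟨_, vTwo_mem ho⟩) = w4 none (some 17) 1 rfl from Subtype.ext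
    (funext fun l => by
      simp only [AddSubgroup.coe_add, AddSubgroup.coe_neg, Pi.add_apply, Pi.neg_apply, signC_apply, w4_apply]
      revert l
      decide +kernel)] at h2
  obtain ⟨σ, rfl, rfl⟩ := exists_perm2 (a := none) (b := some 17) (by decide) hij
  obtain ⟨h, k1, k2⟩ := exL M hne h8 σ ∅ isCw_empty
  have h4 := M.conj h _ k2 h2
  have h5 := (M.cj g).lx.norm h k1 _ h3
  have h6 : R _ (w4 (σ.1 none) (σ.1 (some 17)) 1 rfl) := (mono_w4 σ isCw_empty (by simp)).elim (fun e => e ▸ h4)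
    fun e => by simpa [e] using M.neg h4
  rcases M.uniq h6 ht with rfl | rfl
  exacts [h5, mul_mem (M.mem_cjs_of_mem hs hne) h5]

theorem sq_E {u : G} (hu : u ∈ Q) (hu' : u ∈ cjs g Q) : u * u = 1 :=
  (M.lx.sqr u hu).resolve_right fun e => ((M.cj g).lx.sqr u hu').elim (fun e' => M.lx.ne (e.symm.trans e'))
    fun e' => hne (e'.symm.trans e)

theorem ex_du {u : G} (hu : u ∈ Q) (hu' : u ∈ cjs g Q) (h1 : u ≠ 1) (h2 : ¬ IsConj z u) :
    ∃ v i j, R u v ∧ sqNorm (v : Vec) = 32 ∧ Du v i j := by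
  obtain ⟨v, hv, hn⟩ := M.type_two hs hne hu h1 (sq_E M hs hne h8 hu hu') h2
  have k : ∀ i j, i ≠ j → (4 : ℤ) ∣ (v : Vec) i + (v : Vec) j := fun i j hij => by
    obtain ⟨t, ht⟩ := M.ex' (w4 i j 1 rfl)
    have := (M.comm_iff hv ht).1 (M.comm_inf hne hu hu' (M.mem ht) (mem_E M hs hne h8 hij ht))
    rw [dot_w4] at this
    omega
  rcases shape32 v.2 hn with s | s | s
  · obtain ⟨i, j, hij, hi, hj⟩ := pick2 (x := v) (k := 4) s.2.2.2.2.1.ge
    refine ⟨v, i, j, hv, hn, hij, hi, hj, fun l l1 l2 => by_contra fun l3 => ?_⟩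
    have a1 : |(v : Vec) l| = 4 := by have := s.abs_cases (by omega) l; have := abs_pos.2 l3; omega
    have a2 : #({i, j, l} : Finset GolayPt) ≤ cnt v 4 := card_le_card (by simp [insert_subset_iff, *])
    rw [card_eq_three.2 ⟨i, j, l, hij, l1.symm, l2.symm, rfl⟩, s.2.2.2.2.1] at a2
    omega
  · obtain ⟨i, hi⟩ := exists_of_cnt_pos (x := v) (k := 0) (by rw [s.1]; norm_num)
    obtain ⟨j, hj⟩ := exists_of_cnt_pos (x := v) (k := 2) (by rw [s.2.2.1]; norm_num)
    have := k i j (ne_of_abs hi hj (by norm_num))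
    rw [abs_eq (by norm_num)] at hi hj
    omega
  · have a1 := k none (some 0) (by decide)
    have a2 := k none (some 1) (by decide)
    have a3 := k (some 0) (some 1) (by decide)
    have a4 := s.abs_cases (by omega) none
    simp only [abs_eq (show (0 : ℤ) ≤ 1 by norm_num), abs_eq (show (0 : ℤ) ≤ 3 by norm_num)] at a4
    omega

variable (S : StA ρ Q z) (S' : StA ρ (cjs g Q) (g * z * g⁻¹))
include S S'

local notation "ff" u:max => pr ρ (cjs g Q ⊓ centralizer (Singleton.singleton z : Set G)) (sg u)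
local notation "pp" => pr ρ Q (sg 1)

theorem f_two {u : G} (hu : u ∈ Q) (hu' : u ∈ cjs g Q) (h1 : u ≠ 1) (h2 : ¬ IsConj z u) :
    tr (pp * ff u) = 1 ∧ ∀ h, h * z = z * h → h * (g * z * g⁻¹) = g * z * g⁻¹ * h → h * u = u * h →
      ρ h * (ff u) = ff u := by
  have hρ := ρ.map_mul
  have M' := M.cj g
  have hz := M.mem_cjs_of_mem hs hne
  have c0 : IsConj z (g * z * g⁻¹) := isConj_iff.2 ⟨g, rfl⟩
  have n1 : u ≠ z := fun e => h2 (e ▸ IsConj.refl _)
  have n2 : u ≠ g * z * g⁻¹ := fun e => h2 (e ▸ c0)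
  have c1 := lx_conj M.lx hu h1 n1
  have zz := M.lx.cen u hu
  obtain ⟨a1, a2⟩ := S'.two u hu' h1 (sq_E M hs hne h8 hu hu') fun h => h2 (c0.trans h)
  obtain ⟨b1, b2⟩ := S'.two (u * z) (mul_mem hu' hz) (fun e => h1 (isConj_one_left.1 (e ▸ c1)))
    (sq_E M hs hne h8 (mul_mem hu M.lx.mem) (mul_mem hu' hz)) fun h => h2 ((c0.trans h).trans c1.symm)
  have k : ∀ h, h * z = z * h → h * (g * z * g⁻¹) = g * z * g⁻¹ * h → h * u = u * h → ρ h * (ff u) = ff u :=
    fun h e1 e2 e3 => by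
      rw [pr_half ρ M'.lx hz M.lx.ne hne.symm hu', mul_add, a2 h e2 e3, b2 h e2 (Commute.mul_right e3 e1)]
  refine ⟨?_, k⟩
  obtain ⟨c, hc, e1, e2⟩ := lx_sep M.lx hs hu h1 n1 n2 fun e =>
    h2 (c0.trans (e ▸ M.lx.cen _ hs ▸ lx_conj M.lx hs M'.lx.ne hne))
  have o : pr ρ (cjs g Q) (sg u) * pr ρ (cjs g Q) (sg (u * z)) = 0 ∧
      pr ρ (cjs g Q) (sg (u * z)) * pr ρ (cjs g Q) (sg u) = 0 := by
    obtain ⟨d, hd, e3, e4⟩ := lx_sep M'.lx M'.lx.mem hz M.lx.ne hne.symm hne.symm (by rw [M'.lx.sq]; exact M.lx.ne)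
    have : sg u d ≠ sg (u * z) d := by
      rw [sg_comm (u * z), (lx_sg M'.lx hd).mul u hu' z hz, sg_comm d, sg_neg (t := d) fun e => M'.lx.ne
        (mul_eq_right.1 (e4.symm.trans (mul_inv_eq_iff_eq_mul.2 e)))]
      unfold sg; split_ifs <;> norm_num
    exact ⟨(lx_sg M'.lx hu').orth hρ (lx_sg M'.lx (mul_mem hu' hz)) hd this,
      (lx_sg M'.lx (mul_mem hu' hz)).orth hρ (lx_sg M'.lx hu') hd this.symm⟩
  have p1 := pr_half ρ M.lx hs M'.lx.ne hne Q.one_mem
  rw [one_mul, S.four _ hs hne c0, add_zero] at p1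
  have p2 := tr_pr ρ (Q ⊓ centralizer {g * z * g⁻¹}) (sg 1) (ff u)
  rw [sum_congr rfl (g := fun a => (if a ∈ Q ⊓ centralizer {g * z * g⁻¹} then 1 else 0) +
      if a ∈ Q ⊓ centralizer {g * z * g⁻¹} then sg u a else 0) fun a _ => by
    split_ifs with ha
    · have e3 := mem_centralizer_singleton_iff.1 ha.2
      rw [sg_one', one_mul]
      rcases M.lx.comm a ha.1 u hu with e | e
      · have e := mul_inv_eq_iff_eq_mul.1 e
        rw [k a (M.lx.cen a ha.1) e3 e, sg_pos e.symm, pr_half ρ M'.lx hz M.lx.ne hne.symm hu', map_add, a1, b1]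
      · have e4 : a * (u * z) * a⁻¹ = u := by
          rw [← mul_assoc, mul_assoc _ z, ← M.lx.cen _ (inv_mem ha.1), ← mul_assoc, e, ← zz, mul_assoc, M.lx.sq,
            mul_one]
        rw [sg_neg fun e' => M.lx.ne (mul_eq_right.1 (e.symm.trans (mul_inv_eq_iff_eq_mul.2 e'.symm))),
          pr_half ρ M'.lx hz M.lx.ne hne.symm hu', mul_add, map_add,
          tr_move ((lx_sg M'.lx hu').idem hρ) (lx_pr_conj ρ M'.lx e3 u) (by rw [e, ← zz, o.1]),
          tr_move ((lx_sg M'.lx (mul_mem hu' hz)).idem hρ) (lx_pr_conj ρ M'.lx e3 _) (by rw [e4, o.2])]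
        ring
    · simp, sum_add_distrib, sum_const', ((lx_sg M.lx hu).mono inf_le_left).sum_zero
      (a := c) ⟨hc, mem_centralizer_singleton_iff.2 e1⟩ (sg_neg fun e' => M.lx.ne
        (mul_eq_right.1 (e2.symm.trans (mul_inv_eq_iff_eq_mul.2 e'.symm)))), add_zero, p1] at p2
  exact mul_left_cancel₀ (card_ne _) p2

theorem f_cases {u : G} (hu : u ∈ Q) (hu' : u ∈ cjs g Q) :
    (ff u) = (ff 1) ∨ (ff u) = 0 ∨ (u ≠ 1 ∧ ¬ IsConj z u) := by
  have M' := M.cj g
  have hz := M.mem_cjs_of_mem hs hne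
  have c0 : IsConj z (g * z * g⁻¹) := isConj_iff.2 ⟨g, rfl⟩
  by_cases h : u = 1 ∨ u = z ∨ u = g * z * g⁻¹ ∨ u * z = g * z * g⁻¹
  · refine Or.inl (pr_congr ρ fun a ha => ?_)
    have k1 : sg a z = 1 := sg_pos (mem_centralizer_singleton_iff.1 ha.2)
    have k2 : sg a (g * z * g⁻¹) = 1 := sg_pos (M'.lx.cen a ha.1)
    rw [sg_one', sg_comm]
    rcases h with rfl | rfl | rfl | e
    exacts [sg_pos (by simp), k1, k2, by rw [← k2, ← e, (lx_sg M'.lx ha.1).mul u hu' z hz, k1, mul_one]]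
  push Not at h
  by_cases h2 : IsConj z u
  · rw [pr_half ρ M'.lx hz M.lx.ne hne.symm hu', S'.four u hu' h.2.2.1 (c0.symm.trans h2),
      S'.four _ (mul_mem hu' hz) h.2.2.2 ((c0.symm.trans h2).trans (lx_conj M.lx hu h.1 h.2.1))]
    simp
  · exact Or.inr (Or.inr ⟨h.1, h2⟩)

omit S S' in
theorem f_sum : ∑ u with u ∈ Q ⊓ cjs g Q, (ff u) * pp = (4 : ℂ) • pp := by
  have M' := M.cj g
  have hE := (M.pb_A hs hne h8).2
  have h1 := (ex_of_lx M'.lx).card_cent (M := Q ⊓ cjs g Q) inf_le_right ⟨hs, M'.lx.mem⟩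
  have h2 : Q ⊓ cjs g Q = cjs g Q ⊓ centralizer (Q ⊓ cjs g Q : Subgroup G) := eq_of_le_of_card_ge
    (fun a ha => ⟨ha.2, fun b hb => M.comm_inf hne hb.1 hb.2 ha.1 ha.2⟩) (by rw [hE, M'.card] at h1; omega)
  have h3 : cjs g Q ⊓ centralizer {z} ⊓ centralizer (Q ⊓ cjs g Q : Subgroup G) = Q ⊓ cjs g Q := by
    rw [inf_right_comm, ← h2]
    exact inf_eq_left.2 fun a ha => mem_centralizer_singleton_iff.2 (M.lx.cen a ha.1)
  rw [← sum_mul, sum_pr ρ M'.lx inf_le_right inf_le_left, h3, ev, sum_mul, sum_congr rfl (g := fun a =>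
    (if a ∈ Q ⊓ cjs g Q then (2 ^ 13 / 2 ^ 24 : ℂ) else 0) • pp) fun a _ => by
    split_ifs with ha
    · rw [smul_mul_assoc, (lx_sg M.lx Q.one_mem).mul_pr ρ.map_mul ha.1, sg_one', one_smul, hE, M.card_A hs hne]
      norm_num
    · simp, ← sum_smul, sum_const', hE]
  norm_num

theorem main : False := by
  have hρ := ρ.map_mul
  have M' := M.cj g
  have hz := M.mem_cjs_of_mem hs hne
  choose t ht using fun i j => M.ex' (w4 i j 1 rfl)
  have tE : ∀ {i j}, i ≠ j → t i j ∈ cjs g Q := fun h => mem_E M hs hne h8 h (ht _ _)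
  have SA : ∀ {u}, u ∈ cjs g Q → Sg (cjs g Q ⊓ centralizer {z}) (sg u) := fun hu =>
    (lx_sg M'.lx hu).mono inf_le_left
  have SQ := lx_sg M.lx Q.one_mem
  have sgt := fun {i j} (h : i ≠ j) => @sgw _ _ _ _ _ _ _ _ M hne _ _ _ _ (ht i j) (tE h) (sqNorm_w4 h rfl rfl) (du_w4 h)
  have fe : ∀ {u v i j}, R u v → u ∈ cjs g Q → sqNorm (v : Vec) = 32 → Du v i j → (ff u) = ff (t i j) :=
    fun hu hu' hv d => pr_congr ρ fun a ha => by
      obtain ⟨c, hc, e⟩ := exA' M hs hne h8 ha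
      exact (sgw M hne hu hu' hv d ha.1 e).trans (sgt d.1 ha.1 e).symm
  have o1 : ∀ {i j}, i ≠ j → (ff (t i j)) * (ff 1) = 0 ∧ (ff 1) * (ff (t i j)) = 0 := fun {i j} h => by
    obtain ⟨c, hc, e⟩ := par_ne h
    obtain ⟨a, ha, e'⟩ := exA M hs hne h8 c hc
    have : sg (t i j) a ≠ sg (1 : G) a := by rw [sgt h ha e', e, sg_one']; norm_num
    exact ⟨(SA (tE h)).orth hρ (SA (one_mem _)) ⟨ha, a.2⟩ this, (SA (one_mem _)).orth hρ (SA (tE h)) ⟨ha, a.2⟩ this.symm⟩
  have o2 : ∀ {i j k l}, i ≠ j → k ≠ l → ¬ ((k, l) = (i, j) ∨ (k, l) = (j, i)) →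
      (ff (t i j)) * (ff (t k l)) = 0 := fun h h' e => by
    obtain ⟨c, hc⟩ := not_forall.1 (mt (par_sep h h') e)
    obtain ⟨hc, e⟩ := Classical.not_imp.1 hc
    obtain ⟨a, ha, e'⟩ := exA M hs hne h8 c hc
    exact (SA (tE h)).orth hρ (SA (tE h')) ⟨ha, a.2⟩ (by rw [sgt h ha e', sgt h' ha e']; exact_mod_cast e)
  have pc : ∀ h, h * z = z * h → ∀ x, ρ h * (pp * x) = pp * (ρ h * x) := fun h e x => by
    rw [← mul_assoc, lx_pr_conj ρ M.lx e, mul_one, mul_inv_cancel, mul_assoc]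
  have fc : ∀ u x, (ff u) * (pp * x) = pp * ((ff u) * x) := fun u x => by
    rw [← mul_assoc, ← mul_assoc, pr_comm fun a ha => by
      simpa using pc a (mem_centralizer_singleton_iff.1 ha.2) 1]
  have id : ∀ {u}, u ∈ cjs g Q → pp * (ff u) * (pp * ff u) = pp * ff u := fun hu => by
    rw [mul_assoc, fc, (SA hu).idem hρ, ← mul_assoc, SQ.idem hρ]
  have hc : ∀ h, h * z = z * h → h * (g * z * g⁻¹) = g * z * g⁻¹ * h → ∀ u,
      ρ h * (pp * ff u) = pp * (ff (h * u * h⁻¹)) * ρ h := fun h e1 e2 u => by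
    rw [pc h e1, mul_assoc, pr_conj hρ (fun k => and_congr (lx_norm M'.lx e2 k) (by
      have e3 := mem_centralizer_singleton_iff.2 e1
      exact (Subgroup.mul_mem_cancel_right _ (inv_mem e3)).trans (Subgroup.mul_mem_cancel_left _ e3)))
      fun k _ => sg_conj h u k]
  have nt : ∀ {i j}, i ≠ j → t i j ≠ 1 ∧ ¬ IsConj z (t i j) := fun {i j} h => by
    have h1 := sqNorm_w4 h (e := 1) rfl rfl
    obtain ⟨n1, n2⟩ := M.ne_of_short (ht i j) (by omega) (by omega)
    refine ⟨n1, fun e => ?_⟩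
    obtain ⟨c, e⟩ := isConj_iff.1 e
    obtain ⟨v, h3, h4⟩ := M.type_four (e ▸ M.mem (ht i j)) (e ▸ n2)
    have := M.norm_eq (ht i j) (e ▸ h3) (by omega) (by omega) (by omega) (by omega)
    omega
  have ft := fun {i j} (h : i ≠ j) => f_two M hs hne h8 S S' (M.mem (ht i j)) (tE h) (nt h).1 (nt h).2
  have dec : ∀ h, tr (ρ h * pp) = tr (ρ h * (pp * ff 1)) +
      2⁻¹ * ∑ d ∈ univ.offDiag, tr (ρ h * (pp * ff (t d.1 d.2))) := fun h => by
    have := congrArg (· * (1 - (ff 1) - (2⁻¹ : ℂ) • ∑ d ∈ univ.offDiag, ff (t d.1 d.2))) (f_sum (ρ := ρ) M hs hne h8)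
    simp only [sum_mul, mul_assoc, fc] at this
    rw [sum_eq_zero fun u hu => by
      obtain ⟨hu, hu'⟩ := (mem_filter.1 hu).2
      refine mul_eq_zero_of_right _ ?_
      rw [mul_sub, mul_sub, mul_one, mul_smul_comm, mul_sum]
      rcases f_cases M hs hne h8 S S' hu hu' with e | e | ⟨e1, e2⟩
      · rw [e, (SA (one_mem _)).idem hρ, sum_eq_zero fun d hd => (o1 (mem_offDiag.1 hd).2.2).2]; simp
      · simp [e]
      obtain ⟨v, i, j, h1, h2, d⟩ := ex_du M hs hne h8 hu hu' e1 e2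
      rw [fe h1 hu' h2 d, (o1 d.1).1, sum_congr rfl (g := fun k => (if k = (i, j) then ff (t i j) else 0) +
        if k = (j, i) then ff (t i j) else 0) fun k hk => by
        split_ifs with k1 k2 k2
        · exact absurd (Prod.ext_iff.1 (k1.symm.trans k2)).1 d.1
        · rw [k1, (SA (tE d.1)).idem hρ, add_zero]
        · rw [k2, zero_add, fe (u := t j i) (w4_comm j i ▸ ht j i) (tE d.1.symm) (sqNorm_w4 d.1 rfl rfl) (du_w4 d.1),
            (SA (tE d.1)).idem hρ]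
        · rw [o2 d.1 (mem_offDiag.1 hk).2.2 (not_or.2 ⟨k1, k2⟩), add_zero], sum_add_distrib, sum_ite_eq', sum_ite_eq',
        if_pos (by simpa using d.1), if_pos (by simpa using d.1.symm)]
      module, smul_mul_assoc, eq_comm, smul_eq_zero, or_iff_right (by norm_num), mul_sub, mul_sub, mul_one,
      sub_sub, sub_eq_zero] at this
    nth_rw 1 [this]
    simp only [mul_add, map_add, mul_smul_comm, map_smul, mul_sum, map_sum, smul_eq_mul]
  obtain ⟨k, hk⟩ := tr_nat (id (one_mem _))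
  have wa : ∀ u ∈ cjs g Q, ∀ a : centralizer ({z} : Set G), a.1 ∈ cjs g Q →
      ρ a * (pp * ff u) = sg u a • (pp * ff u) := fun u hu a ha => by
    rw [pc _ (mem_centralizer_singleton_iff.1 a.2), (SA hu).mul_pr hρ ⟨ha, a.2⟩, mul_smul_comm]
  have T1 : ∀ c hc (a : centralizer ({z} : Set G)), a.1 ∈ cjs g Q → (signC c hc : Spor.Co1) = π a →
      tr (ρ a * pp) = k + 2⁻¹ * (∑ d ∈ univ.offDiag, par c d.1 d.2 : ℤ) := fun c hc a ha e => by
    rw [dec, wa _ (one_mem _) a ha, sg_one', one_smul, hk, Int.cast_sum, sum_congr rfl fun d hd => by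
      have h := (mem_offDiag.1 hd).2.2
      rw [wa _ (tE h) a ha, map_smul, (ft h).1, sgt h ha e, smul_eq_mul, mul_one]]
  have pq : ∀ h, ∀ q ∈ Q, ρ (h * q) * pp = ρ h * pp := fun h q hq => by
    rw [hρ, mul_assoc, SQ.mul_pr hρ hq, sg_one', one_smul]
  have pe : ∀ a b : centralizer ({z} : Set G), π a = π b → ρ a * pp = ρ b * pp := fun a b e => by
    rw [← pq b _ ((M.ker (b⁻¹ * a)).1 (by rw [map_mul, map_inv, e, inv_mul_cancel]))]
    simp
  choose hx h1 h2 using fun x => exL M hne h8 x ∅ isCw_empty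
  have wc : ∀ h : centralizer ({z} : Set G), h * (g * z * g⁻¹) = g * z * g⁻¹ * h →
      ρ h * (pp * ff 1) = pp * (ff 1) * ρ h := fun h e => by
    rw [hc h (mem_centralizer_singleton_iff.1 h.2) e, mul_one, mul_inv_cancel]
  have we : ∀ x c hc (h : centralizer ({z} : Set G)), (signC c hc * permC x : Co0) = π h →
      ρ h * (pp * ff 1) = ρ (hx x) * (pp * ff 1) := fun x c hc h e => by
    obtain ⟨a, ha, e'⟩ := exA M hs hne h8 c hc
    rw [← mul_assoc, pe h (a * hx x) (by rw [map_mul, ← e, ← e', ← h2, signC_empty, one_mul]; rfl), Subgroup.coe_mul,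
      hρ, mul_assoc, mul_assoc, wc _ (h1 x), ← mul_assoc, wa _ (one_mem _) a ha, sg_one', one_smul]
  have key : ∀ n a, Inst n a → ∃ x : M24, x ^ 2 = 1 ∧ fx x = n ∧ tr (ρ (hx x) * (pp * ff 1)) = k + a := by
    rintro n b ⟨x, c, c', k1, k2, k3, k4, k5, k6, k7⟩
    obtain ⟨a, ha, e⟩ := exA M hs hne h8 c k1
    obtain ⟨h, e1, e2⟩ := exL M hne h8 x c' k2
    obtain ⟨y, e3⟩ := M.lift xi
    have e0 := mem_centralizer_singleton_iff.1 h.2
    have d1 := dec h
    rw [we x c' k2 h e2, pe h (y * a * y⁻¹) (by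
      rw [map_mul, map_mul, map_inv, ← e, ← e2, ← e3, eq_mul_inv_iff_mul_eq, ← QuotientGroup.mk_mul, ← k5]; rfl),
      ← tr_of_conj ρ (c := y) (x := ρ a * pp) (by
        have := pc y (mem_centralizer_singleton_iff.1 y.2) 1
        rw [mul_one, mul_one] at this
        rw [mul_assoc, ← this, ← mul_assoc, ← mul_assoc, ← hρ, ← hρ]; simp), T1 c k1 a ha e, k7,
      sum_congr rfl (g := fun d => ((if (x.1 d.1, x.1 d.2) = (d.1, d.2) ∨ (x.1 d.1, x.1 d.2) = (d.2, d.1) then 1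
        else 0 : ℤ) : ℂ)) fun ⟨i, j⟩ hd => by
      have n := (mem_offDiag.1 hd).2.2
      have r := M.conj h _ e2 (ht i j)
      split_ifs with p
      · have r' : R _ (w4 (x.1 i) (x.1 j) 1 rfl) := (mono_w4 x k2 (k6 i j p n)).elim (fun e => e ▸ r)
          fun e => by simpa [e] using M.neg r
        have r2 : R (h * t i j * (h : G)⁻¹) (w4 i j 1 rfl) := by
          rcases p with p | p <;> rw [(Prod.mk.inj p).1, (Prod.mk.inj p).2] at r'
          exacts [r', w4_comm _ _ ▸ r']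
        obtain ⟨q, hq, q1, q2⟩ : ∃ q ∈ Q, q * (g * z * g⁻¹) = g * z * g⁻¹ * q ∧ h * q * t i j * (h * q)⁻¹ = t i j := by
          rcases M.uniq (ht i j) r2 with e | e
          · exact ⟨1, one_mem _, by simp, by simpa using e⟩
          have c0 : IsConj z (g * z * g⁻¹) := isConj_iff.2 ⟨g, rfl⟩
          obtain ⟨q, hq, q1, q2⟩ := lx_sep M.lx hs (M.mem (ht i j)) (nt n).1 (fun e => (nt n).2 (e ▸ IsConj.refl _))
            (fun e => (nt n).2 (e ▸ c0)) fun e => (nt n).2 (c0.trans (e ▸ M.lx.cen _ hs ▸ lx_conj M.lx hs M'.lx.ne hne))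
          refine ⟨q, hq, q1, ?_⟩
          rw [show h * q * t i j * (h * q)⁻¹ = h * (q * t i j * q⁻¹) * (h : G)⁻¹ by group, q2, ← mul_assoc, e0,
            mul_assoc z, mul_assoc z, e, M.zz]
        have q3 : h * q * z = z * (h * q) := Commute.mul_left e0 (M.lx.cen q hq)
        rw [← mul_assoc, ← pq _ q hq, mul_assoc, pc _ q3, (ft n).2 _ q3 (Commute.mul_left e1 q1)
          (mul_inv_eq_iff_eq_mul.1 q2), (ft n).1, Int.cast_one]
      · rw [tr_move (id (tE n)) (hc h e0 e1 _) (by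
          rw [fe r (M'.lx.norm _ e1 _ (tE n)) (by rw [co0_norm, sqNorm_w4 n rfl rfl]) ((du_w4 n).mono x c' k2),
            mul_assoc, fc, o2 n (x.1.injective.ne n) p, mul_zero, mul_zero]), Int.cast_zero],
      ← Int.cast_sum] at d1
    exact ⟨x, k3, k4, by push_cast at d1 ⊢; linear_combination -d1⟩
  obtain ⟨m, m1, m2⟩ := S.zero
  have m3 := T1 ∅ isCw_empty 1 (one_mem _) (by rw [signC_empty, map_one]; rfl)
  rw [OneMemClass.coe_one, map_one, one_mul, m2, show ∑ d ∈ univ.offDiag, par ∅ d.1 d.2 = 552 by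
    simp [par, offDiag_card]] at m3
  have m4 : (m : ℂ) = (k + 276 : ℕ) := by push_cast at m3 ⊢; linear_combination m3
  obtain ⟨a, a1, a2, a3⟩ := key _ _ inst.1
  obtain ⟨b, b1, b2, b3⟩ := key _ _ inst.2
  refine m24_deg (ω := fun x => ρ (hx x) * (pp * ff 1)) (k := k) (fun x y => ?_)
    (by have := Nat.cast_injective m4; omega) ?_ a1 a2 (a3.trans (by push_cast; ring)) b1 b2
    (b3.trans (by push_cast; ring))
  · rw [← we _ ∅ isCw_empty (hx x * hx y) (by
      rw [map_mul, ← h2, ← h2, signC_empty, one_mul, one_mul, one_mul, permC_mul]; rfl), Subgroup.coe_mul, hρ,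
      mul_assoc (ρ (hx x)), mul_assoc (ρ (hx x)), ← mul_assoc (_ * _) (ρ (hx y)), ← wc _ (h1 y), mul_assoc (ρ (hx y)),
      id (one_mem _)]
  · rw [← we _ ∅ isCw_empty 1 (by rw [signC_empty, permC_one, one_mul, map_one]; rfl), OneMemClass.coe_one, map_one,
      one_mul, hk]

omit h8 S S' in
theorem min_deg (hρ : Function.Injective ρ) : 196883 ≤ finrank ℂ V := by
  by_contra hn
  have h1 : ∀ x, x ≠ 1 → ρ x ≠ 1 := fun x hx e => hx (hρ (e.trans ρ.map_one.symm))
  obtain ⟨k, hk⟩ := M.exists_twist hs hne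
  have e : g⁻¹ * (g * z * g⁻¹) * g⁻¹⁻¹ = z := by group
  exact main (M.twist k) hs hne hk (stA ρ M hs hne (h1 _ M.lx.ne) (not_le.1 hn))
    (stA ρ (M.cj g) (g := g⁻¹) (e.symm ▸ M.mem_cjs_of_mem hs hne) (e.symm ▸ hne.symm) (h1 _ (M.cj g).lx.ne) (not_le.1 hn))

end Cfsg.Agent.H51.MDeg
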