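import Cfsg.Agent.H49.Hall
import Cfsg.Agent.H48.Trans
import Cfsg.Agent.H70.Conj
import Cfsg.Agent.H46.Generation
import Cfsg.Agent.H22.PConstrained
import Cfsg.Agent.S1302

/-!
The transitivity theorem for groups whose `p`-locals are `p`-constrained.
-/

set_option autoImplicit false
set_option linter.unusedSectionVars false

namespace Cfsg.Agent.H51

open Cfsg.Agent.H49 Subgroup

universe u

variable {G : Type u} [Group G] [Finite G] {p : ℕ}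

/-- every `p`-subgroup has class at most two -/
def ClTwo (p : ℕ) (G : Type u) [Group G] : Prop :=
  ∀ S : Subgroup G, IsPGroup p S → ⁅S, S⁆ ≤ 𝒞(S)

/-- `E` contains every `p`-subgroup of its centralizer -/
def FullIn (p : ℕ) (E : Subgroup G) : Prop :=
  ∀ T : Subgroup G, T ≤ 𝒞(E) → IsPGroup p T → T ≤ E

theorem clTwo_of_sylow [Fact p.Prime]
    (h : ∀ S : Sylow p G, Group.IsNilpotent (S : Subgroup G) ∧
      Group.nilpotencyClass (S : Subgroup G) ≤ 2) : ClTwo p G := by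
  intro T hT
  obtain ⟨S, hS⟩ := hT.exists_le_sylow
  have := (h S).1
  have h1 := Subgroup.lowerCentralSeries_eq_bot_iff_nilpotencyClass_le.2 (h S).2
  have h2 : (S : Subgroup G).lowerCentralSeries 2 = ⊥ := by
    have := congrArg (Subgroup.map (S : Subgroup G).subtype) h1
    rwa [map_lowerCentralSeries, ← MonoidHom.range_eq_map, subtype_range, Subgroup.map_bot] at this
  have h3 : ⁅⁅(S : Subgroup G), (S : Subgroup G)⁆, (S : Subgroup G)⁆ = ⊥ := h2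
  exact ((commutator_mono hS hS).trans (H49.commutator_eq_bot_iff.1 h3)).trans (cent_anti hS)

theorem sig_clTwo [hp : Fact p.Prime] (hX : H22.IsCharP p G) (hcl : ClTwo p G) {E Y : Subgroup G}
    (hE : IsPGroup p E) (hfull : FullIn p E) (hY : (Nat.card Y).Coprime p)
    (hEY : E ≤ 𝒩(Y)) : Y = ⊥ := by
  unfold H22.IsCharP at hX
  set P := pCore p G with hPdef
  have hP : IsPGroup p P := H22.isPGroup_pCore
  have hn : ∀ T : Subgroup G, T ≤ 𝒩(P) := fun T => le_normalizer_of_normal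
  have hPY : P ⊓ Y = ⊥ := H22.inf_eq_bot_of_pgroup_coprime hP hY
  have hS : IsPGroup p ↥(P ⊔ E) := IsPGroup.to_sup_of_normal_left hP hE
  have hcop : ∀ U T : Subgroup G, U ≤ Y → IsPGroup p T → (Nat.card U).Coprime (Nat.card T) := by
    intro U T hU hT
    obtain ⟨k, hk⟩ := hT.exists_card_eq
    rw [hk]
    exact (H22.coprime_card_of_le hU hY).pow_right k
  have h1 : ⁅P, E⁆ ≤ 𝒞(P ⊔ E) :=
    (commutator_mono le_sup_left le_sup_right).trans (hcl _ hS)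
  have h1P : ⁅P, E⁆ ≤ P := commutator_le_left_of_norm (hn E)
  have h2 : ⁅P, E⁆ ≤ E := hfull _ (h1.trans (cent_anti le_sup_right)) (hP.to_le h1P)
  have h3 : ⁅P, E⁆ ≤ 𝒞(Y) := by
    rw [← H49.commutator_eq_bot_iff, eq_bot_iff, ← hPY]
    exact le_inf ((commutator_mono h1P le_rfl).trans (commutator_le_left_of_norm (hn Y)))
      (commutator_le_right_of_norm (h2.trans hEY))
  have h4 : ⁅⁅E, Y⁆, P⁆ ≤ P ⊓ 𝒞(P) ⊓ 𝒞(Y) := by
    refine H70.three_subgroups (norm_inf (norm_inf (hn E) (norm_cent (hn E))) (norm_cent hEY))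
      (norm_of_cent (cent_symm inf_le_right))
      (norm_of_cent (cent_symm (inf_le_left.trans inf_le_right))) ?_ ?_
    · refine (commutator_mono (commutator_le_right_of_norm (hn Y)) le_rfl).trans ?_
      exact le_inf (le_inf h1P (h1.trans (cent_anti le_sup_left))) h3
    · rw [H49.commutator_eq_bot_iff.2 h3]
      exact bot_le
  have hUY : ⁅E, Y⁆ ≤ Y := commutator_le_right_of_norm hEY
  have h5 : ⁅E, Y⁆ ≤ 𝒞(P) := by
    refine coprime_cent_of_stable (hn _) (hcop _ _ hUY hP)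
      (Or.inr (solvable_of_nilpotent hP.isNilpotent)) ?_
    rw [Subgroup.commutator_comm]
    exact h4.trans (inf_le_right.trans (cent_anti hUY))
  have h6 : E ≤ 𝒞(Y) := by
    rw [← H49.commutator_eq_bot_iff, eq_bot_iff, ← hPY]
    exact le_inf (h5.trans hX) hUY
  have h7 : Y ≤ 𝒞(P ⊔ E) := by
    refine H48.coprime_nil_faithful_cent_stab hS.isNilpotent
      (norm_sup (hn Y) (norm_of_cent (cent_symm h6))) (hcop _ _ le_rfl hS) ?_
    refine le_trans (hfull _ ?_ (hS.to_le inf_le_left)) h6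
    exact inf_le_right.trans (cent_anti (le_inf le_sup_right h6))
  rw [eq_bot_iff, ← hPY]
  exact le_inf ((h7.trans (cent_anti le_sup_left)).trans hX) le_rfl

theorem sig_top [hp : Fact p.Prime] (hX : IsPConstrained p G) (hcl : p = 2 → ClTwo p G)
    {E Y : Subgroup G} (hE : IsPGroup p E) (hEc : E ≤ 𝒞(E)) (hfull : FullIn p E)
    (hY : (Nat.card Y).Coprime p) (hEY : E ≤ 𝒩(Y)) : Y ≤ pPrimeCore p G := by
  by_cases h2 : p = 2
  · set f := QuotientGroup.mk' (pPrimeCore p G) with hf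
    have hs : Function.Surjective f := QuotientGroup.mk'_surjective _
    have hk : (Nat.card f.ker).Coprime p := H22.coprime_ker_mk'
    have h1 : Y.map f = ⊥ := by
      refine sig_clTwo (E := E.map f) (H22.isPConstrained_iff.1 hX) ?_ (hE.map f)
        ?_ (H22.coprime_card_map f hY)
        ((map_mono hEY).trans (le_normalizer_map f))
      · intro S hS
        obtain ⟨T, -, hT, rfl⟩ := H22.exists_isPGroup_map_eq f (H := ⊤) hS
          (by rw [← MonoidHom.range_eq_map, MonoidHom.range_eq_top.2 hs]; exact le_top)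
        rw [← map_commutator]
        exact (map_mono (hcl h2 T hT)).trans (H22.map_centralizer_le f T)
      · intro S hSE hS
        rw [← H22.map_centralizer_of_ker_coprime f hs hk hE] at hSE
        obtain ⟨T, hTE, hT, rfl⟩ := H22.exists_isPGroup_map_eq f hS hSE
        exact map_mono (hfull T hTE hT)
    rwa [Subgroup.map_eq_bot_iff, hf, QuotientGroup.ker_mk'] at h1
  · refine S1302.result p h2 hX E (abelian_iff.2 hEc) hE (fun x hx ho => ?_) Y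
      ((Nat.Prime.coprime_iff_not_dvd hp.out).1 hY.symm) hEY
    refine hfull (zpowers x) (zpowers_le.2 hx) ?_ (mem_zpowers x)
    exact IsPGroup.of_card (n := 1) (by rw [Nat.card_zpowers, ho, pow_one])

theorem sig_amb [hp : Fact p.Prime] {N : Subgroup G} (hN : IsPConstrained p N)
    (hcl : p = 2 → ClTwo p G) {E Y : Subgroup G} (hEN : E ≤ N) (hYN : Y ≤ N) (hE : IsPGroup p E)
    (hEc : E ≤ 𝒞(E)) (hfull : FullIn p E) (hY : IsPi {p}ᶜ Y) (hEY : E ≤ 𝒩(Y)) :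
    Y ≤ piCoreOf {p}ᶜ N := by
  rw [H48.pcore_compl_eq hp.out, ← map_subgroupOf_eq_of_le hYN]
  refine map_mono (sig_top (E := E.subgroupOf N) hN ?_ (H92.isPGroup_subgroupOf hE N) ?_ ?_ ?_ ?_)
  · intro h2 S hS
    have h1 := hcl h2 (S.map N.subtype) (hS.map _)
    rw [← map_commutator] at h1
    intro x hx
    rw [mem_centralizer_iff]
    intro y hy
    exact Subtype.ext (h1 (mem_map_of_mem N.subtype hx) y (mem_map_of_mem N.subtype hy))
  · rw [H48.cent_subgroupOf hEN]; exact comap_mono hEc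
  · intro T hT hTp
    rw [H48.cent_subgroupOf hEN] at hT
    have := hfull (T.map N.subtype) (map_le_iff_le_comap.2 hT) (hTp.map _)
    exact map_le_iff_le_comap.1 this
  · rw [H48.card_subgroupOf hYN]; exact (H48.isPi_compl_iff_coprime hp.out).1 hY
  · rw [← subgroupOf_normalizer_eq hYN]; exact comap_mono hEY

theorem transit [hp : Fact p.Prime]
    (hloc : ∀ T : Subgroup G, IsPGroup p T → T ≠ ⊥ → IsPConstrained p ↥𝒩(T))
    (hcl : p = 2 → ClTwo p G) {E A : Subgroup G} (hE : IsPGroup p E) (hEc : E ≤ 𝒞(E))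
    (hfull : FullIn p E) (hAE : A ≤ E) (hA : IsElementaryAbelian p A)
    (hA3 : p ^ 2 < Nat.card A) {q : ℕ} [hq : Fact q.Prime] (hqp : q ≠ p) (D : Subgroup G) :
    ∀ Q₁ ∈ maxInvSubgroups ⊤ E {q}, ∀ Q₂ ∈ maxInvSubgroups ⊤ E {q}, D ≤ Q₁ → D ≤ Q₂ →
      ∃ k ∈ piCoreOf {p}ᶜ 𝒞(E), Q₂ = cj k Q₁ := by
  induction D using WellFoundedGT.induction with
  | ind D ih =>
  intro Q₁ h₁ Q₂ h₂ hD₁ hD₂
  have h₁' := H48.mem_maxInv_iff.1 h₁
  have h₂' := H48.mem_maxInv_iff.1 h₂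
  by_cases e₁ : Q₁ ≤ Q₂
  · exact ⟨1, one_mem _, by rw [cj_one, h₁'.2 Q₂ h₂'.1.1 h₂'.1.2 e₁]⟩
  by_cases e₂ : Q₂ ≤ Q₁
  · exact ⟨1, one_mem _, by rw [cj_one, h₂'.2 Q₁ h₁'.1.1 h₁'.1.2 e₂]⟩
  set D₀ := Q₁ ⊓ Q₂ with hD₀
  have hED : E ≤ 𝒩(D₀) := norm_inf h₁'.1.2 h₂'.1.2
  have hyp : ∀ Q : Subgroup G, IsPi {q} Q → E ≤ 𝒩(Q) → D₀ < Q →
      ∃ B ≤ A, B.relIndex A ∣ p ∧ ¬ (Q ⊓ 𝒩(D₀)) ⊓ 𝒞(B) ≤ D₀ := by
    intro Q hQ hEQ hlt
    by_contra hc
    push Not at hc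
    refine (lt_inf_norm_of_nilpotent hQ.nilpotent hlt).not_ge
      (H46.le_of_forall_relIndex_dvd hA ?_ (hAE.trans (norm_inf hEQ (norm_norm hED))) hc)
    exact (H48.isPi_compl_iff hp.out).1
      ((H48.isPi_of_le hQ inf_le_left).compl_singleton_of_ne hqp)
  obtain ⟨B₁, hB₁A, hB₁, hN₁⟩ := hyp Q₁ h₁'.1.1 h₁'.1.2
    (lt_of_le_of_ne inf_le_left fun h => e₁ (h ▸ inf_le_right))
  obtain ⟨B₂, hB₂A, hB₂, hN₂⟩ := hyp Q₂ h₂'.1.1 h₂'.1.2
    (lt_of_le_of_ne inf_le_right fun h => e₂ (h ▸ inf_le_left))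
  have hB : B₁ ⊓ B₂ ≠ ⊥ := by
    intro h
    have h3 := relIndex_inf_le (H := B₁) (K := B₂) (L := A)
    rw [h, relIndex_bot_left] at h3
    have h4 := Nat.mul_le_mul (Nat.le_of_dvd hp.out.pos hB₁) (Nat.le_of_dvd hp.out.pos hB₂)
    nlinarith
  obtain ⟨v, hv, hv1⟩ := H48.exists_ne_one_of_ne_bot hB
  have hvE : zpowers v ≤ E := zpowers_le.2 (hAE (hB₁A hv.1))
  set N := 𝒩(zpowers v) with hN
  have hNc : IsPConstrained p N := hloc _ (hE.to_le hvE) (zpowers_ne_bot.2 hv1)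
  have hCN : 𝒞(E) ≤ N := (cent_anti hvE).trans (cent_le_norm _)
  have hEN : E ≤ N := hEc.trans hCN
  have hEv : E ≤ 𝒞(zpowers v) := hEc.trans (cent_anti hvE)
  set L := D₀ ⊔ (piCoreOf {p}ᶜ N ⊓ 𝒩(D₀)) with hL
  have hLp : IsPi {p}ᶜ L := H48.isPi_sup inf_le_right
    ((H48.isPi_of_le h₁'.1.1 inf_le_left).compl_singleton_of_ne hqp)
    (H48.isPi_of_le (piCoreOf_pi _ _) inf_le_left)
  have hEL : E ≤ 𝒩(L) := norm_sup hED (norm_inf (H48.le_norm_pcore _ hEN) (norm_norm hED))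
  have hcop : (Nat.card E).Coprime (Nat.card L) :=
    (isPi_of_isPGroup hp.out hE).coprime hLp
  have hsE : Group.IsSolvable E := solvable_of_nilpotent hE.isNilpotent
  have key : ∀ (Q B : Subgroup G), IsPi {q} Q → E ≤ 𝒩(Q) → D₀ ≤ Q → v ∈ B →
      ¬ (Q ⊓ 𝒩(D₀)) ⊓ 𝒞(B) ≤ D₀ →
      ∃ U R, D₀ < U ∧ U ≤ Q ∧ H92.SylIn q R L ∧ U ≤ R ∧ E ≤ 𝒩(R) := by
    intro Q B hQ hEQ hDQ hvB hnot
    set C := (Q ⊓ 𝒩(D₀)) ⊓ 𝒞(zpowers v) with hC
    have hEC : E ≤ 𝒩(C) := norm_inf (norm_inf hEQ (norm_norm hED)) (norm_of_le hEv)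
    have hCQ : C ≤ Q := inf_le_left.trans inf_le_left
    have hCO : C ≤ piCoreOf {p}ᶜ N := sig_amb hNc hcl hEN (inf_le_right.trans (cent_le_norm _))
      hE hEc hfull ((H48.isPi_of_le hQ hCQ).compl_singleton_of_ne hqp) hEC
    have hUQ : D₀ ⊔ C ≤ Q := sup_le hDQ hCQ
    obtain ⟨R, hR, hUR, hER⟩ := H48.exists_inv_sylIn_ge hEL hcop (Or.inl hsE)
      (U := D₀ ⊔ C) (sup_le_sup_left (le_inf hCO (inf_le_left.trans inf_le_right)) _)
      ((H48.isPi_of_le hQ hUQ).isPGroup hq.out) (norm_sup hED hEC)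
    refine ⟨D₀ ⊔ C, R, lt_of_le_of_ne le_sup_left fun h => hnot ?_, hUQ, hR, hUR, hER⟩
    exact (inf_le_inf_left _ (cent_anti (zpowers_le.2 hvB))).trans (le_sup_right.trans h.ge)
  obtain ⟨U₁, R₁, hU₁, hUQ₁, hR₁, hUR₁, hER₁⟩ := key Q₁ B₁ h₁'.1.1 h₁'.1.2 inf_le_left hv.1 hN₁
  obtain ⟨U₂, R₂, hU₂, hUQ₂, hR₂, hUR₂, hER₂⟩ := key Q₂ B₂ h₂'.1.1 h₂'.1.2 inf_le_right hv.2 hN₂
  obtain ⟨c, hc, hcR⟩ := H48.inv_sylIn_cj hEL hcop (Or.inl hsE) hR₁ hR₂ hER₁ hER₂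
  have hcK : c ∈ piCoreOf {p}ᶜ 𝒞(E) := by
    have h3 : zpowers c ≤ 𝒞(E) := zpowers_le.2 hc.2
    have h4 : zpowers c ≤ piCoreOf {p}ᶜ N := sig_amb hNc hcl hEN (h3.trans hCN) hE hEc hfull
      (H48.isPi_of_le hLp (zpowers_le.2 hc.1)) (norm_of_cent (cent_symm h3))
    exact (le_inf h4 h3).trans (piCoreOf_inf_le _ hCN) (mem_zpowers c)
  obtain ⟨T, hT, hRT⟩ := H48.exists_maxInv_ge (isPi_of_isPGroup hq.out hR₁.pgroup) hER₁
  have hT' := H48.maxInv_cj (cent_le_norm E hc.2) hT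
  have hDD : D ≤ D₀ := le_inf hD₁ hD₂
  obtain ⟨k₁, hk₁, e₃⟩ := ih U₁ (hDD.trans_lt hU₁) Q₁ h₁ T hT hUQ₁ (hUR₁.trans hRT)
  obtain ⟨k₂, hk₂, e₄⟩ := ih U₂ (hDD.trans_lt hU₂) _ hT' Q₂ h₂
    (hUR₂.trans (hcR ▸ cj_mono c hRT)) hUQ₂
  exact ⟨k₂ * c * k₁, mul_mem (mul_mem hk₂ hcK) hk₁, by rw [cj_mul, cj_mul, ← e₃, e₄]⟩

end Cfsg.Agent.H51
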